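import Cfsg.Agent.AutPO.Inndiag
set_option autoImplicit false
set_option quotPrecheck false
set_option linter.unusedSectionVars false

/-!
`Ω(Q)` is perfect and its normal subgroups are central or everything.
-/

namespace CfsgLib.AutPO

open QuadraticMap Matrix
open CfsgLib.Forms
open scoped commutatorElement

variable {F : Type*} [Field F] [Finite F] {ι : Type} [Fintype ι] [DecidableEq ι]
  {Q : QuadraticForm F (ι → F)}

local notation "V" => (ι → F)
local notation "bq" => QuadraticMap.polar (⇑Q)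
local notation "Ω'" => (Cfsg.Omega F ⇑Q)
local notation "PΩ'" => (Cfsg.POmega F ⇑Q)

variable (h : GH Q)
include h

theorem sie_singular_mem_commutator {d y : V} (hd : Q d = 0) (hy : Q y = 0) (hyd : bq y d = 0) :
    sie Q d y ∈ commutator Ω' := by
  rcases eq_or_ne d 0 with rfl | hd0
  · rw [show sie Q (0 : V) y = 1 from ext_lin fun v => by rw [sie_apply h hd hyd, lin_one]; simp]
    exact one_mem _
  by_cases hys : y ∈ Submodule.span F {d}
  · rw [(sie_eq_one_iff h hd hd0 hyd).2 hys]; exact one_mem _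
  have hdy : d ∉ Submodule.span F {y} := fun hm => by
    obtain ⟨c, hc⟩ := Submodule.mem_span_singleton.1 hm
    have hc0 : c ≠ 0 := fun h0 => hd0 (by rw [← hc, h0, zero_smul])
    exact hys (Submodule.mem_span_singleton.2 ⟨c⁻¹, by rw [← hc, inv_smul_smul₀ hc0]⟩)
  have hdp : d ∈ perp Q (Submodule.span F {y}) := mem_perp_span.2 fun u hu => by
    rw [Set.mem_singleton_iff] at hu; rw [hu]; exact swap0 hyd
  obtain ⟨d', hd', hd'Q, hdd'⟩ := exists_partner h.nondeg hdp hd hdy
  have hP := disjoint_pair hd hd'Q hdd'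
  have hyP : y ∈ perp Q (Submodule.span F {d, d'}) := mem_perp_span.2 fun u hu => by
    rcases hu with rfl | rfl
    · exact hyd
    · exact swap0 (mem_perp.1 hd' y (Submodule.mem_span_singleton_self y))
  obtain ⟨y', hy', hy'Q, hyy'⟩ := exists_partner h.nondeg hyP hy fun hm => by
    have h0 : y = 0 := Submodule.disjoint_def.1 hP y hm hyP
    exact hys (by rw [h0]; exact Submodule.zero_mem _)
  obtain ⟨a, b, ha, hb, ha0, hb0, hab⟩ := exists_pair_perp h.nondeg (disjoint_sup_pair hP hyP hy' hy hy'Q hyy')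
    (by
      have := finrank_sup_pair_le (Submodule.span F {d, d'}) y y'
      have := finrank_span_pair_le (F := F) d d'
      have := h.dim
      omega)
  have hdK : d ∈ Submodule.span F {d, d'} ⊔ Submodule.span F {y, y'} :=
    Submodule.mem_sup_left (Submodule.subset_span (by simp))
  have hyK : y ∈ Submodule.span F {d, d'} ⊔ Submodule.span F {y, y'} :=
    Submodule.mem_sup_right (Submodule.subset_span (by simp))
  have hya : bq y a = 0 := swap0 (mem_perp.1 ha y hyK)
  have hbd : bq b d = 0 := mem_perp.1 hb d hdK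
  set A := sie Q a y with hA
  have hAd : lin A d = d := by
    rw [hA, sie_apply h ha0 hya, swap0 hyd, swap0 (mem_perp.1 ha d hdK)]; simp
  have hAb : lin A b = b - y := by
    rw [hA, sie_apply h ha0 hya, mem_perp.1 hb y hyK, hy, polar_comm (⇑Q) b a, hab]; simp
  have e : ⁅A, sie Q d b⁆ = sie Q d (-y) := by
    rw [commutatorElement_def, sie_conj h A hd hbd, hAd, hAb, sie_inv h hd hbd,
      sie_mul h hd (by rw [polar_sub_left, hbd, hyd, sub_zero]) (by rw [polar_neg_left, hbd, neg_zero])]
    congr 1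
    abel
  have hm : sie Q d (-y) ∈ commutator Ω' :=
    e ▸ Subgroup.commutator_mem_commutator (Subgroup.mem_top _) (Subgroup.mem_top _)
  have := inv_mem hm
  rwa [sie_inv h hd (by rw [polar_neg_left, hyd, neg_zero]), neg_neg] at this

theorem sie_mem_commutator {d a : V} (hd : Q d = 0) (had : bq a d = 0) :
    sie Q d a ∈ commutator Ω' := by
  rcases eq_or_ne d 0 with rfl | hd0
  · rw [show sie Q (0 : V) a = 1 from ext_lin fun v => by rw [sie_apply h hd had, lin_one]; simp]
    exact one_mem _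
  obtain ⟨d', -, hd'Q, hdd'⟩ := exists_partner h.nondeg (U := ⊥) (d := d)
    (mem_perp.2 fun u hu => by rw [(Submodule.mem_bot F).1 hu, polar_zero_right]) hd (by simpa using hd0)
  set P := Submodule.span F ({d, d'} : Set V)
  set z := a - bq a d' • d with hz
  have hzd : bq z d = 0 := by
    rw [hz, polar_sub_left, polar_smul_left, had, polar_self_zero hd]; simp
  have hzP : z ∈ perp Q P := mem_perp_span.2 fun u hu => by
    rcases hu with rfl | rfl
    · exact hzd
    · rw [hz, polar_sub_left, polar_smul_left, hdd']; simp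
  rw [(sie_eq_iff h hd hd0 had hzd).2 (by
    rw [hz, sub_sub_cancel]; exact Submodule.smul_mem _ _ (Submodule.mem_span_singleton_self d))]
  have key : ∀ x ∈ Submodule.span F {w | w ∈ perp Q P ∧ Q w = 0},
      ∀ c : F, bq x d = 0 ∧ sie Q d (c • x) ∈ commutator Ω' := by
    intro x hx
    induction hx using Submodule.span_induction with
    | mem x hx =>
      intro c
      have hxd : bq x d = 0 := mem_perp.1 hx.1 d (Submodule.subset_span (by simp))
      exact ⟨hxd, sie_singular_mem_commutator h hd (map_smul0 hx.2 c) (by rw [polar_smul_left, hxd, smul_zero])⟩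
    | zero => exact fun c => ⟨polar_zero_left _ _, by rw [smul_zero, sie_zero h hd]; exact one_mem _⟩
    | add x y _ _ hx hy =>
      intro c
      obtain ⟨hxd, hxm⟩ := hx c
      obtain ⟨hyd, hym⟩ := hy c
      refine ⟨by rw [polar_add_left, hxd, hyd, add_zero], ?_⟩
      rw [smul_add, ← sie_mul h hd (by rw [polar_smul_left, hxd, smul_zero]) (by rw [polar_smul_left, hyd, smul_zero])]
      exact mul_mem hxm hym
    | smul s x _ hx =>
      intro c
      exact ⟨by rw [polar_smul_left, (hx 1).1, smul_zero], by rw [smul_smul]; exact (hx _).2⟩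
  have := (key z (perp_le_span_singular h.nondeg (disjoint_pair hd hd'Q hdd') (by
    have := finrank_span_pair_le (F := F) d d'; have := h.dim; omega) hzP) 1).2
  rwa [one_smul] at this

/-- The Siegel elements generate. -/
theorem eq_top_of_sie {K : Subgroup Ω'} (hK : ∀ d a, Q d = 0 → bq a d = 0 → sie Q d a ∈ K) : K = ⊤ := by
  have hn : 5 ≤ Module.finrank F V := by simp; have := h.dim; omega
  have key : ∀ g, g ∈ rootGroup Q → ∃ A ∈ K, lin A = g := by
    intro g hg
    induction hg using Subgroup.closure_induction with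
    | mem y hy =>
      obtain ⟨d, a, hd, had, -, rfl⟩ := hy
      exact ⟨_, hK d a hd had, LinearEquiv.ext fun v => by rw [sie_apply h hd had, siegel_apply]⟩
    | one => exact ⟨1, one_mem _, map_one _⟩
    | mul y z _ _ hy hz =>
      obtain ⟨A, hA, rfl⟩ := hy
      obtain ⟨B, hB, rfl⟩ := hz
      exact ⟨A * B, mul_mem hA hB, map_mul _ _ _⟩
    | inv y _ hy =>
      obtain ⟨A, hA, rfl⟩ := hy
      exact ⟨A⁻¹, inv_mem hA, map_inv _ _⟩
  refine eq_top_iff.2 fun w _ => ?_
  have hw : lin w ∈ rootGroup Q :=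
    commutator_le_rootGroup h.nondeg hn ((mem_Omega_iff Q (w : Cfsg.isometryGroup F ⇑Q)).1 w.2)
  obtain ⟨A, hA, e⟩ := key _ hw
  rwa [← lin_injective e]

theorem commutator_eq_top : commutator Ω' = ⊤ :=
  eq_top_of_sie h fun _ _ hd had => sie_mem_commutator h hd had

theorem qsub_smul {d : V} (hd : Q d = 0) {c : F} (hc : c ≠ 0) : qsub Q (c • d) = qsub Q d := by
  refine le_antisymm (fun x hx => ?_) fun x hx => ?_
  · obtain ⟨a, ha, rfl⟩ := (mem_qsub h (map_smul0 hd c)).1 hx
    rw [polar_smul_right, smul_eq_mul, mul_eq_zero, or_iff_right hc] at ha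
    rw [sie_smul h hd ha]
    exact sie_mem_qsub (by rw [polar_smul_left, ha, smul_zero])
  · obtain ⟨a, ha, rfl⟩ := (mem_qsub h hd).1 hx
    rw [show sie Q d a = sie Q (c • d) (c⁻¹ • a) by
      rw [sie_smul h hd (by rw [polar_smul_left, ha, smul_zero]), smul_inv_smul₀ hc]]
    exact sie_mem_qsub (by rw [polar_smul_left, polar_smul_right, ha]; simp)

/-- A normal subgroup of `Ω` is central or everything. -/
theorem le_center_or_eq_top (N : Subgroup Ω') [N.Normal] : N ≤ Subgroup.center Ω' ∨ N = ⊤ := by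
  by_cases hc : N ≤ Subgroup.center Ω'
  · exact Or.inl hc
  refine Or.inr ?_
  set π := QuotientGroup.mk' N
  let P : V → Subgroup (Ω' ⧸ N) := fun d => (qsub Q d).map π
  have hPs : ∀ {d : V}, Q d = 0 → ∀ {c : F}, c ≠ 0 → P (c • d) = P d := fun hd _ hc => by
    show (qsub Q _).map π = _; rw [qsub_smul h hd hc]
  have hPA : ∀ (A : Ω') {d : V}, Q d = 0 → P (lin A d) = (P d).map (MulAut.conj (π A)).toMonoidHom := by
    intro A d hd
    refine le_antisymm ?_ ?_
    · rintro _ ⟨x, hx, rfl⟩
      have h1 := qsub_conj_mem h A⁻¹ (show Q (lin A d) = 0 by rw [map_lin, hd]) hx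
      rw [lin_inv_apply, inv_inv] at h1
      refine ⟨_, ⟨_, h1, rfl⟩, ?_⟩
      simp [mul_assoc]
    · rintro _ ⟨_, ⟨x, hx, rfl⟩, rfl⟩
      exact ⟨_, qsub_conj_mem h A hd hx, by simp⟩
  -- a point moved inside one class
  obtain ⟨d, n, hn, hd, hd0, hmove⟩ : ∃ (d : V) (n : Ω'), n ∈ N ∧ Q d = 0 ∧ d ≠ 0 ∧
      lin n d ∉ Submodule.span F {d} := by
    by_contra hno
    push Not at hno
    refine hc fun n hn => ?_
    obtain ⟨-, c, -, hcs⟩ := scalar_of_eigen (g := ((n : Cfsg.isometryGroup F ⇑Q) : GL ι F))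
      (τ := RingEquiv.refl F) h fun d hd hd0 => by
        obtain ⟨c, hc⟩ := Submodule.mem_span_singleton.1 (hno d n hn hd hd0)
        refine ⟨c, ?_⟩
        rw [hc, lin_apply]
        rfl
    exact mem_center_of_scalar (c := c) fun v => by rw [lin_apply, hcs]
  have hde : P (lin n d) = P d := by
    rw [hPA n hd, show π n = 1 from (QuotientGroup.eq_one_iff n).2 hn, map_one]
    exact Subgroup.map_id _
  set e := lin n d with he_def
  have he : Q e = 0 := by rw [he_def, map_lin, hd]
  -- the equation spreads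
  have horth : ∃ u w : V, Q u = 0 ∧ Q w = 0 ∧ bq w u = 0 ∧ u ≠ 0 ∧ w ∉ Submodule.span F {u} ∧ P u = P w := by
    by_cases hb : bq e d = 0
    · exact ⟨d, e, hd, he, hb, hd0, hmove, hde.symm⟩
    have hc0 : (bq d e)⁻¹ ≠ 0 := inv_ne_zero fun h0 => hb (swap0 h0)
    have h1 : bq d ((bq d e)⁻¹ • e) = 1 := by
      rw [polar_smul_right, smul_eq_mul, inv_mul_cancel₀ fun h0 => hb (swap0 h0)]
    set f := (bq d e)⁻¹ • e with hf_def
    have hf : Q f = 0 := map_smul0 he _
    have hPf : P f = P d := by rw [hf_def, hPs he hc0, hde]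
    obtain ⟨a, a', ha, -, ha0, -, haa⟩ := exists_pair_perp h.nondeg (disjoint_pair hd hf h1) (by
      have := finrank_span_pair_le (F := F) d f; have := h.dim; omega)
    have had : bq a d = 0 := mem_perp.1 ha d (Submodule.subset_span (by simp))
    have haf : bq a f = 0 := mem_perp.1 ha f (Submodule.subset_span (by simp))
    have hd1 : bq d (f + a) = 1 := by rw [polar_add_right, h1, swap0 had, add_zero]
    obtain ⟨A, c, hc, hA, hA'⟩ := exists_move_pair h hd hf hd0 (by rw [h1]; exact one_ne_zero) hd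
      (map_add0 hf ha0 (swap0 haf)) hd1
    have hPfa : P (f + a) = P d := by
      rw [← hA', hPA A (map_smul0 hf c), hPs hf hc, hPf, ← hPA A hd, hA]
    refine ⟨f, f + a, hf, map_add0 hf ha0 (swap0 haf),
      by rw [polar_add_left, polar_self_zero hf, haf, add_zero],
      fun h0 => by rw [h0, polar_zero_right] at h1; exact zero_ne_one h1, fun hm => ?_, hPf.trans hPfa.symm⟩
    obtain ⟨k, hk⟩ := Submodule.mem_span_singleton.1 hm
    have h2 := congrArg (fun z => bq z a') hk
    have h3 := congrArg (fun z => bq z d) hk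
    simp only [polar_add_left, polar_smul_left, had, add_zero, smul_eq_mul, polar_comm (⇑Q) f d, h1] at h3
    rw [mul_one] at h3
    simp only [h3, one_smul, polar_add_left, haa] at h2
    exact one_ne_zero (by linear_combination -h2)
  obtain ⟨u, w, hu, hw, hwu, hu0, hwind, huw⟩ := horth
  have hline : ∀ L : Submodule F V, IsLine Q L → ∀ x ∈ L, ∀ y ∈ L, x ≠ 0 → y ≠ 0 → P x = P y := by
    intro L hL x hx y hy hx0 hy0
    obtain ⟨A, hA⟩ := exists_im_eq h (isLine_span hu hw hwu hu0 hwind) hL
    have hall : ∀ z ∈ Submodule.span F ({u, w} : Set V), z ≠ 0 → P z = P u := by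
      intro z hz hz0
      obtain ⟨s, t, rfl⟩ := Submodule.mem_span_pair.1 hz
      rcases eq_or_ne t 0 with rfl | ht
      · rw [zero_smul, add_zero] at hz0 ⊢
        exact hPs hu fun hs => hz0 (by rw [hs, zero_smul])
      obtain ⟨w', hw', -, hww'⟩ := exists_partner h.nondeg (U := Submodule.span F {u}) (d := w)
        (mem_perp_span.2 fun z hz => by rw [Set.mem_singleton_iff] at hz; rw [hz]; exact hwu) hw hwind
      have hau : bq ((t⁻¹ * s) • w') u = 0 := by
        rw [polar_smul_left, mem_perp.1 hw' u (Submodule.mem_span_singleton_self u), smul_zero]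
      have e1 : s • u + t • w = t • lin (sie Q u ((t⁻¹ * s) • w')) w := by
        rw [sie_apply_perp h hu hau hwu, polar_smul_right, hww', smul_add, smul_smul]
        rw [smul_eq_mul, mul_one, ← mul_assoc, mul_inv_cancel₀ ht, one_mul, add_comm]
      rw [e1, hPs (by rw [map_lin, hw]) ht, hPA _ hw, ← huw, ← hPA _ hu, sie_self h hu hau]
    have hmem : ∀ z ∈ L, z ≠ 0 → P z = (P u).map (MulAut.conj (π A)).toMonoidHom := by
      intro z hz hz0
      rw [← hA] at hz
      obtain ⟨z₀, hz₀, rfl⟩ := hz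
      show P (lin A z₀) = _
      rw [hPA A ((isLine_span hu hw hwu hu0 hwind).2 z₀ hz₀),
        hall z₀ hz₀ fun h0 => hz0 (by rw [h0]; exact map_zero _)]
    rw [hmem x hx hx0, hmem y hy hy0]
  have hall : ∀ x y : V, Q x = 0 → Q y = 0 → x ≠ 0 → y ≠ 0 → P x = P y := by
    have hor : ∀ x y : V, Q x = 0 → Q y = 0 → x ≠ 0 → y ≠ 0 → bq y x = 0 → P x = P y := by
      intro x y hx hy hx0 hy0 hyx
      by_cases hm : y ∈ Submodule.span F {x}
      · obtain ⟨c, rfl⟩ := Submodule.mem_span_singleton.1 hm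
        exact (hPs hx fun h0 => hy0 (by rw [h0, zero_smul])).symm
      exact hline _ (isLine_span hx hy hyx hx0 hm) x (Submodule.subset_span (by simp)) y
        (Submodule.subset_span (by simp)) hx0 hy0
    intro x y hx hy hx0 hy0
    by_cases hb : bq y x = 0
    · exact hor x y hx hy hx0 hy0 hb
    have hc0 : bq x y ≠ 0 := fun h0 => hb (swap0 h0)
    have h1 : bq x ((bq x y)⁻¹ • y) = 1 := by rw [polar_smul_right, smul_eq_mul, inv_mul_cancel₀ hc0]
    obtain ⟨z, z', hz, -, hz0, -, hzz⟩ := exists_pair_perp h.nondeg (disjoint_pair hx (map_smul0 hy _) h1) (by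
      have := finrank_span_pair_le (F := F) x ((bq x y)⁻¹ • y); have := h.dim; omega)
    have hzne : z ≠ 0 := fun h0 => by rw [h0, polar_zero_left] at hzz; exact zero_ne_one hzz
    rw [hor x z hx hz0 hx0 hzne (mem_perp.1 hz x (Submodule.subset_span (by simp))),
      ← hor y z hy hz0 hy0 hzne (mem_perp.1 hz y (Submodule.mem_span_pair.2
        ⟨0, bq x y, by rw [zero_smul, zero_add, smul_inv_smul₀ hc0]⟩))]
  -- the quotient is abelian
  have hK : (P d).comap π = ⊤ := eq_top_of_sie h fun x a hx hax => by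
    rcases eq_or_ne x 0 with rfl | hx0
    · rw [show sie Q (0 : V) a = 1 from ext_lin fun v => by rw [sie_apply h hx hax, lin_one]; simp]
      exact one_mem _
    show π (sie Q x a) ∈ P d
    rw [← hall x d hx hd hx0 hd0]
    exact ⟨_, sie_mem_qsub hax, rfl⟩
  have hcomm : ∀ g g' : Ω', π g * π g' = π g' * π g := by
    intro g g'
    have h1 : π g ∈ P d := show g ∈ (P d).comap π by rw [hK]; trivial
    have h2 : π g' ∈ P d := show g' ∈ (P d).comap π by rw [hK]; trivial
    obtain ⟨x, hx, e1⟩ := h1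
    obtain ⟨x', hx', e2⟩ := h2
    obtain ⟨a, ha, rfl⟩ := (mem_qsub h hd).1 hx
    obtain ⟨a', ha', rfl⟩ := (mem_qsub h hd).1 hx'
    rw [← e1, ← e2, ← map_mul, ← map_mul, sie_mul h hd ha ha', sie_mul h hd ha' ha, add_comm]
  refine eq_top_iff.2 ?_
  rw [← commutator_eq_top h, commutator_def, Subgroup.commutator_le]
  intro g _ g' _
  rw [← QuotientGroup.eq_one_iff]
  show π ⁅g, g'⁆ = 1
  rw [map_commutatorElement, commutatorElement_eq_one_iff_mul_comm, hcomm]

theorem isSimpleGroup_POmega : IsSimpleGroup PΩ' := by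
  have hne : Nontrivial PΩ' := by
    obtain ⟨L, hL⟩ := exists_line h
    obtain ⟨d, -, hd, -, hd0, -, -⟩ := hL.exists_basis
    obtain ⟨x, -, hx⟩ := Subgroup.bot_or_exists_ne_one (qbar Q d) |>.resolve_left (qbar_ne_bot h (hL.2 d hd) hd0)
    exact ⟨⟨x, 1, hx⟩⟩
  refine ⟨fun H hH => ?_⟩
  rcases le_center_or_eq_top h (H.comap proj) with hc | hc
  · refine Or.inl (eq_bot_iff.2 fun x hx => ?_)
    obtain ⟨s, rfl⟩ := proj_surjective x
    exact Subgroup.mem_bot.2 ((QuotientGroup.eq_one_iff s).2 (hc hx))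
  · refine Or.inr (eq_top_iff.2 fun x _ => ?_)
    obtain ⟨s, rfl⟩ := proj_surjective x
    have : s ∈ H.comap proj := by rw [hc]; trivial
    exact this

end CfsgLib.AutPO
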