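import Cfsg.Agent.AutPO.Classify
import Cfsg.Agent.Forms.SimilitudeStd
set_option autoImplicit false

/-!
The even-dimensional standard forms.
-/

namespace CfsgLib.AutPO

open QuadraticMap CfsgLib.Forms

variable {F : Type*} [Field F] [Fintype F] {m : ℕ}

theorem gh_plus (hm : 5 ≤ m) : GH (quadPlus F m) :=
  ⟨nondegenerate_quadPlus m, by simp; omega, Or.inl (by simp; omega)⟩

theorem gh_minus (hm : 3 ≤ m) {a b : F}
    (hab : ∀ z₁ z₂ : F, z₁ ^ 2 + a * z₁ * z₂ + b * z₂ ^ 2 = 0 → z₁ = 0 ∧ z₂ = 0) : GH (quadMinus F m a b) := by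
  refine ⟨nondegenerate_quadMinus m hab, by simp; omega, ?_⟩
  by_cases h4 : 4 ≤ m
  · exact Or.inl (by simp; omega)
  · refine Or.inr fun U hU => ?_
    have := finrank_le_of_singular_minus hab (U := U) fun u hu => by
      have := hU u hu
      rwa [coe_quadMinus] at this
    omega

end CfsgLib.AutPO
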