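import Cfsg.Agent.AutPO.Classify
set_option autoImplicit false

/-!
The odd-dimensional standard form.
-/

namespace CfsgLib.AutPO

open QuadraticMap CfsgLib.Forms

variable {F : Type*} [Field F] [Fintype F] {m : ℕ}

theorem gh_odd (hodd : Odd (Fintype.card F)) (hm : 3 ≤ m) : GH (quadOdd F m) := by
  have h2 := CfsgLib.OrthOrder.two_ne_zero_of_odd hodd
  refine ⟨nondegenerate_quadOdd m h2, by simp; omega, ?_⟩
  by_cases h4 : 4 ≤ m
  · exact Or.inl (by simp; omega)
  · refine Or.inr fun U hU => ?_
    have := two_finrank_le_of_singular (nondegenerate_quadOdd m h2) hU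
    simp at this
    omega

end CfsgLib.AutPO
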