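import Cfsg.Agent.AutPO.Inndiag
import Cfsg.Agent.AutPO.Odd
import Cfsg.Agent.Forms.Spinor
set_option autoImplicit false
set_option quotPrecheck false
set_option linter.unusedSectionVars false

/-!
`Aut PΩ_(2m+1)(q) = SO ⋊ Aut F` for odd `q`.
-/

namespace CfsgLib.AutPO

open QuadraticMap Matrix
open CfsgLib.Forms

variable {F : Type*} [Field F] [Finite F] {ι : Type} [Fintype ι] [DecidableEq ι]
  {Q : QuadraticForm F (ι → F)}

local notation "V" => (ι → F)
local notation "bq" => QuadraticMap.polar (⇑Q)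
local notation "Ω'" => (Cfsg.Omega F ⇑Q)
local notation "PΩ'" => (Cfsg.POmega F ⇑Q)
local notation "SO'" => (Cfsg.specialIsometryGL F ⇑Q)

/-- Odd dimension, and the form commutes with the field automorphisms. -/
structure GO (Q : QuadraticForm F (ι → F)) : Prop where
  gh : GH Q
  two_ne : (2 : F) ≠ 0
  card : Odd (Fintype.card ι)
  fix : ∀ (τ : RingAut F) (v : ι → F), Q (τ ∘ v) = τ (Q v)

theorem semi_one (τ : F ≃+* F) (v : V) : semi (1 : GL ι F) τ v = τ ∘ v := by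
  rw [semi, Units.val_one, one_mulVec]

theorem semi_refl (g : GL ι F) (v : V) : semi g (RingEquiv.refl F) v = (g : Matrix ι ι F) *ᵥ v := rfl

/-- Composition of the induced automorphisms. -/
theorem stdAut_comp {g₁ g₂ g₃ : GL ι F} {τ₁ τ₂ τ₃ : F ≃+* F} {k₁ k₂ k₃ : F} (h₁ : IsSemi Q g₁ τ₁ k₁)
    (h₂ : IsSemi Q g₂ τ₂ k₂) (h₃ : IsSemi Q g₃ τ₃ k₃) {s : F}
    (e : ∀ v, semi g₃ τ₃ v = s • semi g₁ τ₁ (semi g₂ τ₂ v)) :
    stdAut h₃ = stdAut h₁ * stdAut h₂ := by
  refine MulEquiv.ext fun x => ?_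
  obtain ⟨x, rfl⟩ := proj_surjective x
  rw [MulAut.mul_apply, stdAut_proj, stdAut_proj, stdAut_proj]
  refine congrArg proj (ext_lin fun v => ?_)
  obtain ⟨w, rfl⟩ := semi_surjective g₃ τ₃ v
  rw [lin_semiΩ, e (lin x w), e w, map_smul, lin_semiΩ, lin_semiΩ]

theorem isSemi_field (hQ : GO Q) (τ : RingAut F) : IsSemi Q (1 : GL ι F) τ 1 :=
  ⟨one_ne_zero, fun v => by rw [semi_one, hQ.fix, one_mul]⟩

/-- The standard field automorphisms. -/
noncomputable def fieldA (hQ : GO Q) : RingAut F →* MulAut PΩ' :=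
  MonoidHom.mk' (fun τ => stdAut (isSemi_field hQ τ)) fun τ σ =>
    stdAut_comp (isSemi_field hQ τ) (isSemi_field hQ σ) (isSemi_field hQ (τ * σ)) (s := 1) fun v => by
      rw [one_smul, semi_one, semi_one, semi_one]; rfl

variable (hQ : GO Q)
include hQ

theorem fieldA_eq (τ : RingAut F) : fieldA hQ τ = stdAut (isSemi_field hQ τ) := rfl

theorem fieldA_induced (τ : RingAut F) :
    Cfsg.IsInducedBySemilinearPOmega (⇑Q) (1 : GL ι F) τ (fieldA hQ τ) := isInduced_stdAut _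

/-- A field automorphism on the special orthogonal group. -/
def fieldSO (τ : RingAut F) : SO' →* SO' where
  toFun a := ⟨Units.map (τ : F →+* F).mapMatrix.toMonoidHom (a : GL ι F), by
    refine ⟨mem_isometryGroup.2 fun v => ?_, MonoidHom.mem_ker.2 (Units.ext ?_)⟩
    · show Q ((a : GL ι F).1.map τ *ᵥ v) = Q v
      conv_lhs => rw [← comp_symm τ v, map_mulVec', hQ.fix, mem_isometryGroup.1 a.2.1, ← hQ.fix, comp_symm]
    · show ((τ : F →+* F).mapMatrix (a : GL ι F).1).det = 1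
      rw [← RingHom.map_det, det_so, map_one]⟩
  map_one' := Subtype.ext (map_one _)
  map_mul' a b := Subtype.ext (map_mul _ _ _)

theorem coe_fieldSO (τ : RingAut F) (a : SO') :
    ((fieldSO hQ τ a : GL ι F) : Matrix ι ι F) = (a : GL ι F).1.map τ := rfl

theorem fieldA_mul_soA (τ : RingAut F) (a : SO') :
    fieldA hQ τ * soA Q a = soA Q (fieldSO hQ τ a) * fieldA hQ τ := by
  have h3 : IsSemi Q ((fieldSO hQ τ a : GL ι F)) τ 1 := ⟨one_ne_zero, fun v => by
    rw [semi, mem_isometryGroup.1 (fieldSO hQ τ a).2.1, hQ.fix, one_mul]⟩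
  rw [soA_eq_stdAut, soA_eq_stdAut, fieldA_eq]
  refine (stdAut_comp _ _ h3 (s := 1) fun v => ?_).symm.trans
    (stdAut_comp (isSemi_so _) (isSemi_field hQ τ) h3 (s := 1) fun v => ?_)
  · rw [one_smul, semi_one, semi_refl, semi, coe_fieldSO, map_mulVec']
  · rw [one_smul, semi_one, semi_refl]; rfl

theorem stdAut_eq {g : GL ι F} {τ : RingAut F} {k : F} (hs : IsSemi Q g τ k) :
    ∃ a : SO', stdAut hs = soA Q a * fieldA hQ τ := by
  obtain ⟨a, s, -, -, ha⟩ := exists_so_smul hQ.gh hQ.card hs.1 (g := g) fun v => by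
    have h1 := hs.2 (τ.symm ∘ v)
    rwa [semi, comp_symm, ← hQ.fix, comp_symm] at h1
  refine ⟨a, ?_⟩
  rw [soA_eq_stdAut, fieldA_eq]
  exact stdAut_comp (isSemi_so a) (isSemi_field hQ τ) hs (s := s) fun v => by
    rw [semi_one, semi_refl, semi, ha]

theorem classifyA (α : MulAut PΩ') : ∃ (a : SO') (τ : RingAut F), α = soA Q a * fieldA hQ τ := by
  obtain ⟨g, τ, k, hs, rfl⟩ := classify hQ.gh α
  obtain ⟨a, ha⟩ := stdAut_eq hQ hs
  exact ⟨a, τ, ha⟩

theorem decompositionA {a : SO'} {τ : RingAut F} (e : soA Q a * fieldA hQ τ = 1) : a = 1 ∧ τ = 1 := by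
  have h3 : IsSemi Q (a : GL ι F) τ 1 := ⟨one_ne_zero, fun v => by
    rw [semi, mem_isometryGroup.1 a.2.1, hQ.fix, one_mul]⟩
  have e3 : stdAut h3 = 1 := by
    rw [← e, soA_eq_stdAut, fieldA_eq]
    exact stdAut_comp _ _ h3 (s := 1) fun v => by rw [one_smul, semi_one, semi_refl]; rfl
  obtain ⟨hτ, -⟩ := decomposition hQ.gh h3 e3
  have hτ' : τ = 1 := hτ
  rw [hτ', map_one, mul_one] at e
  exact ⟨soA_injective hQ.gh hQ.card (e.trans (map_one _).symm), hτ'⟩

theorem uniqueA {a b : SO'} {τ σ : RingAut F}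
    (e : soA Q a * fieldA hQ τ = soA Q b * fieldA hQ σ) : a = b ∧ τ = σ := by
  have h1 : soA Q (b⁻¹ * a) * fieldA hQ (τ * σ⁻¹) = 1 := by
    rw [map_mul, map_inv, map_mul, map_inv, mul_assoc, ← mul_assoc (soA Q a), e]; group
  obtain ⟨h2, h3⟩ := decompositionA hQ h1
  exact ⟨(inv_mul_eq_one.1 h2).symm, mul_inv_eq_one.1 h3⟩

theorem fieldA_injective : Function.Injective (fieldA hQ) := by
  rw [injective_iff_map_eq_one]
  intro τ e
  exact (decompositionA hQ (a := 1) (by rw [map_one, one_mul, e])).2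

/-- The decomposition as a bijection. -/
noncomputable def autEquiv : SO' × RingAut F ≃ MulAut PΩ' :=
  Equiv.ofBijective (fun x => soA Q x.1 * fieldA hQ x.2)
    ⟨fun x y e => Prod.ext (uniqueA hQ e).1 (uniqueA hQ e).2, fun α => by
      obtain ⟨a, τ, rfl⟩ := classifyA hQ α
      exact ⟨(a, τ), rfl⟩⟩

theorem card_aut : Nat.card (MulAut PΩ') = Nat.card SO' * Nat.card (RingAut F) := by
  rw [← Nat.card_prod]; exact (Nat.card_congr (autEquiv hQ)).symm

theorem soA_range_normal : (soA Q).range.Normal := by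
  refine ⟨?_⟩
  rintro _ ⟨b, rfl⟩ α
  obtain ⟨a, τ, rfl⟩ := classifyA hQ α
  refine ⟨a * fieldSO hQ τ b * a⁻¹, ?_⟩
  rw [map_mul, map_mul, map_inv]
  calc soA Q a * soA Q (fieldSO hQ τ b) * (soA Q a)⁻¹
      = soA Q a * (soA Q (fieldSO hQ τ b) * fieldA hQ τ) * (fieldA hQ τ)⁻¹ * (soA Q a)⁻¹ := by group
    _ = _ := by rw [← fieldA_mul_soA hQ]; group

/-! ### The spinor norm -/

/-- The spinor norm on the special orthogonal group. -/
noncomputable def spinSO : SO' →* ℤˣ :=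
  ((spin hQ.two_ne hQ.gh.nondeg).comp (isoEquiv Q).toMonoidHom).comp
    (Subgroup.inclusion (show SO' ≤ Cfsg.isometryGroup F ⇑Q from inf_le_left))

theorem spinSO_eq_one_iff (a : SO') :
    spinSO hQ a = 1 ↔ (⟨(a : GL ι F), a.2.1⟩ : Cfsg.isometryGroup F ⇑Q) ∈ Cfsg.Omega F ⇑Q := by
  rw [mem_Omega_iff, mem_commutator_iff hQ.two_ne hQ.gh.nondeg
    (by rw [Module.finrank_fintype_fun_eq_card]; have := hQ.gh.dim; omega)]
  refine ⟨fun e => ⟨?_, e⟩, fun e => e.2⟩
  have hd : LinearMap.det ((glEquiv (a : GL ι F) : V ≃ₗ[F] V) : V →ₗ[F] V) = 1 := by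
    rw [det_glEquiv, det_so]
  simp only [detSign, MonoidHom.coe_mk, OneHom.coe_mk, coe_isoEquiv, hd, if_true]

theorem det_of_mem_Omega {w : Cfsg.isometryGroup F ⇑Q} (hw : w ∈ Ω') : (w : GL ι F).1.det = 1 := by
  have hd : Nat.card F ≠ 2 ∨ Fintype.card ι ≠ 4 := Or.inr (by have := hQ.gh.dim; omega)
  obtain ⟨l, hl⟩ := exists_list hQ.gh.nondeg hd w
  rw [det_of_list hl, ((mem_Omega_of_list hQ.gh.nondeg hd hl).1 hw).1.neg_one_pow]

/-- An element of `Ω` as a special isometry. -/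
def omSO (s : Ω') : SO' :=
  ⟨((s : Cfsg.isometryGroup F ⇑Q) : GL ι F), (s : Cfsg.isometryGroup F ⇑Q).2,
    MonoidHom.mem_ker.2 (Units.ext (det_of_mem_Omega hQ s.2))⟩

theorem soA_omSO (s : Ω') : soA Q (omSO hQ s) = MulAut.conj (proj s) := (Simil.conj_eq_act s).symm

theorem soA_mem_inn_iff (a : SO') : soA Q a ∈ Cfsg.Inn PΩ' ↔ spinSO hQ a = 1 := by
  rw [spinSO_eq_one_iff]
  constructor
  · rintro ⟨x, hx⟩
    obtain ⟨s, rfl⟩ := proj_surjective x
    rw [← soA_omSO hQ] at hx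
    rw [← soA_injective hQ.gh hQ.card hx]
    exact s.2
  · intro h
    exact ⟨proj ⟨_, h⟩, (soA_omSO hQ ⟨_, h⟩).symm.trans (congrArg _ (Subtype.ext rfl))⟩

theorem inn_le_range : Cfsg.Inn PΩ' ≤ (soA Q).range := by
  rintro _ ⟨x, rfl⟩
  obtain ⟨s, rfl⟩ := proj_surjective x
  exact ⟨_, soA_omSO hQ s⟩

theorem conj_injective : Function.Injective (MulAut.conj : PΩ' →* MulAut PΩ') := by
  rw [injective_iff_map_eq_one]
  intro x hx
  obtain ⟨s, rfl⟩ := proj_surjective x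
  have h1 := soA_injective hQ.gh hQ.card ((soA_omSO hQ s).trans (hx.trans (map_one (soA Q)).symm))
  have hs : s = 1 := Subtype.ext (Subtype.ext (show ((omSO hQ s : SO') : GL ι F) = ((1 : SO') : GL ι F) by rw [h1]))
  rw [hs, map_one]

theorem spinSO_surjective : Function.Surjective (spinSO hQ) := by
  classical
  have := Fintype.ofFinite F
  have h2 := hQ.two_ne
  have hdim : 2 ≤ Module.finrank F V := by
    rw [Module.finrank_fintype_fun_eq_card]; have := hQ.gh.dim; omega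
  obtain ⟨ν, hν⟩ := FiniteField.exists_nonsquare (F := F) (fun h => h2 (by
    have := ringChar.eq_iff.1 h; exact CharTwo.two_eq_zero))
  have hν0 : ν ≠ 0 := fun h => hν (h ▸ IsSquare.zero)
  obtain ⟨u, hu⟩ := exists_value hQ.gh.nondeg hdim (one_ne_zero : (1 : F) ≠ 0)
  obtain ⟨w, hw⟩ := exists_value hQ.gh.nondeg hdim hν0
  have hu0 : Q u ≠ 0 := by rw [hu]; exact one_ne_zero
  have hw0 : Q w ≠ 0 := by rw [hw]; exact hν0
  let g := listGL Q [⟨u, hu0⟩, ⟨w, hw0⟩]
  have hd : (g : GL ι F).1.det = 1 := by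
    rw [det_of_list (isoEquiv_listGL _)]; simp
  let a : SO' := ⟨g, g.2, MonoidHom.mem_ker.2 (Units.ext hd)⟩
  have ha : spinSO hQ a ≠ 1 := fun e => by
    have h1 := (spinSO_eq_one_iff hQ a).1 e
    have hd' : Nat.card F ≠ 2 ∨ Fintype.card ι ≠ 4 := Or.inr (by have := hQ.gh.dim; omega)
    have h2 := ((mem_Omega_of_list hQ.gh.nondeg hd' (isoEquiv_listGL _)).1 h1).2
    simp [valueProd, hu, hw, hν] at h2
  intro z
  rcases Int.units_eq_one_or z with rfl | rfl
  · exact ⟨1, map_one _⟩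
  · exact ⟨a, (Int.units_eq_one_or _).resolve_left ha⟩

theorem card_so : Nat.card SO' = 2 * Nat.card PΩ' := by
  have h := Subgroup.card_eq_card_quotient_mul_card_subgroup (spinSO hQ).ker
  rw [Nat.card_congr (QuotientGroup.quotientKerEquivOfSurjective _ (spinSO_surjective hQ)).toEquiv,
    Nat.card_eq_fintype_card (α := ℤˣ), Fintype.card_units_int] at h
  rw [h]
  congr 1
  refine (Nat.card_congr (Equiv.ofBijective (fun s : Ω' => (⟨omSO hQ s,
    (spinSO_eq_one_iff hQ _).2 s.2⟩ : (spinSO hQ).ker)) ⟨?_, ?_⟩)).symm.trans ?_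
  · intro s t e
    exact Subtype.ext (Subtype.ext (congrArg (fun z : (spinSO hQ).ker => (z.1 : GL ι F)) e))
  · rintro ⟨a, ha⟩
    exact ⟨⟨_, (spinSO_eq_one_iff hQ a).1 ha⟩, Subtype.ext (Subtype.ext rfl)⟩
  · refine Nat.card_congr (Equiv.ofBijective proj ⟨?_, proj_surjective⟩)
    rw [injective_iff_map_eq_one]
    intro s hs
    have h1 : MulAut.conj (proj s) = (1 : MulAut PΩ') := by rw [hs, map_one]
    have h2 := soA_injective hQ.gh hQ.card ((soA_omSO hQ s).trans (h1.trans (map_one (soA Q)).symm))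
    exact Subtype.ext (Subtype.ext (show ((omSO hQ s : SO') : GL ι F) = ((1 : SO') : GL ι F) by rw [h2]))

end CfsgLib.AutPO
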