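import Cfsg.Agent.AutPO.OddClass
import Cfsg.Agent.AutPO.Simple
import Cfsg.Agent.AutPSp.Balance
import Cfsg.Agent.LocalBalance.Core
set_option autoImplicit false
set_option quotPrecheck false
set_option linter.unusedSectionVars false

/-!
Local balance for field automorphisms of `PΩ_(2m+1)(q)`.
-/

namespace CfsgLib.AutPO

open QuadraticMap Matrix
open CfsgLib.Forms

variable {F : Type*} [Field F] [Fintype F] {F₀ : Type*} [Field F₀] [Fintype F₀] {m : ℕ}
  {τ : RingAut F} {φ : F₀ →+* F}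

local notation "I" => (Unit ⊕ (Fin m ⊕ Fin m))
local notation "Qs" => (quadOdd F m)
local notation "Q0" => (quadOdd F₀ m)
local notation "SO'" => (Cfsg.specialIsometryGL F ⇑(quadOdd F m))
local notation "Ω0" => (Cfsg.Omega F₀ ⇑(quadOdd F₀ m))
local notation "PΩ'" => (Cfsg.POmega F ⇑(quadOdd F m))

theorem proj_injective {ι : Type} [Fintype ι] [DecidableEq ι] {Q : QuadraticForm F (ι → F)} (hQ : GO Q) :
    Function.Injective (proj (Q := Q)) := by
  rw [injective_iff_map_eq_one]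
  intro s hs
  have h1 : MulAut.conj (proj s) = (1 : MulAut (Cfsg.POmega F ⇑Q)) := by rw [hs, map_one]
  have h2 := soA_injective hQ.gh hQ.card ((soA_omSO hQ s).trans (h1.trans (map_one (soA Q)).symm))
  refine Subtype.ext (Subtype.ext ?_)
  show ((omSO hQ s : Cfsg.specialIsometryGL F ⇑Q) : GL ι F) = ((1 : Cfsg.specialIsometryGL F ⇑Q) : GL ι F)
  rw [h2]

theorem map_ne_zero_comp {v : I → F₀} (hv : v ≠ 0) : (φ ∘ v : I → F) ≠ 0 := fun h =>
  hv (funext fun i => φ.injective ((congrFun h i).trans (map_zero φ).symm))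

theorem polar_map_comp (u v : I → F₀) : polar (⇑Qs) (φ ∘ u) (φ ∘ v) = φ (polar (⇑Q0) u v) := by
  have e : φ ∘ u + φ ∘ v = φ ∘ (u + v) := funext fun i => (map_add φ _ _).symm
  simp only [QuadraticMap.polar, e, quadOdd_map, map_sub]

variable (hQ : GO (quadOdd F m)) (hQ₀ : GO (quadOdd F₀ m))
include hQ hQ₀

/-- The subgroup `Ω` of the fixed field. -/
noncomputable def subΩ : Ω0 →* MulAut PΩ' :=
  ((soA Qs).comp (mapSO hQ.two_ne φ)).comp
    (MonoidHom.mk' (omSO hQ₀) fun _ _ => Subtype.ext rfl)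

theorem subΩ_apply (s : Ω0) : subΩ (φ := φ) hQ hQ₀ s = soA Qs (mapSO hQ.two_ne φ (omSO hQ₀ s)) := rfl

theorem subΩ_injective : Function.Injective (subΩ (φ := φ) hQ hQ₀) := fun s t e => by
  have h := mapSO_injective _ (soA_injective hQ.gh hQ.card e)
  exact Subtype.ext (Subtype.ext (congrArg
    (fun z : Cfsg.specialIsometryGL F₀ ⇑(quadOdd F₀ m) => (z : GL I F₀)) h))

theorem spinSO_mapSO_omSO (s : Ω0) : spinSO hQ (mapSO hQ.two_ne φ (omSO hQ₀ s)) = 1 := by
  have hd : Nat.card F ≠ 2 ∨ Fintype.card I ≠ 4 := Or.inr (by have := hQ.gh.dim; omega)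
  have hd0 : Nat.card F₀ ≠ 2 ∨ Fintype.card I ≠ 4 := Or.inr (by have := hQ.gh.dim; omega)
  obtain ⟨l, hl⟩ := exists_list hQ₀.gh.nondeg hd0 (s : Cfsg.isometryGroup F₀ ⇑(quadOdd F₀ m))
  obtain ⟨hlen, hsq⟩ := (mem_Omega_of_list hQ₀.gh.nondeg hd0 hl).1 s.2
  rw [spinSO_eq_one_iff, mem_Omega_of_list hQ.gh.nondeg hd (mapSO_list hQ.two_ne (omSO hQ₀ s) hl),
    valueProd_mapList]
  exact ⟨by simpa [mapList] using hlen, hsq.map φ⟩

theorem subΩ_mem_inn (s : Ω0) : subΩ (φ := φ) hQ hQ₀ s ∈ Cfsg.Inn PΩ' :=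
  (soA_mem_inn_iff hQ _).2 (spinSO_mapSO_omSO hQ hQ₀ s)

theorem mapSO_sie {d a : I → F₀} (hd : Q0 d = 0) (had : polar (⇑Q0) a d = 0) :
    mapSO hQ.two_ne φ (omSO hQ₀ (sie Q0 d a)) = omSO hQ (sie Qs (φ ∘ d) (φ ∘ a)) := by
  refine Subtype.ext (Units.ext (Matrix.ext_of_mulVec_single fun i => ?_))
  have hs : φ ∘ (Pi.single i 1 : I → F₀) = Pi.single i 1 := funext fun j => by
    by_cases hj : j = i <;> simp [hj]
  rw [← hs, coe_mapSO, map_mulVec_comp]
  show φ ∘ ((((sie Q0 d a : Ω0) : Cfsg.isometryGroup F₀ ⇑(quadOdd F₀ m)) : GL I F₀).1 *ᵥ _) =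
    (((sie Qs (φ ∘ d) (φ ∘ a) : Cfsg.Omega F ⇑(quadOdd F m)) : Cfsg.isometryGroup F ⇑(quadOdd F m)) : GL I F).1 *ᵥ _
  rw [← lin_apply, ← lin_apply, sie_apply hQ₀.gh hd had,
    sie_apply hQ.gh (by rw [quadOdd_map, hd, map_zero]) (by rw [polar_map_comp, had, map_zero]),
    quadOdd_map, polar_map_comp, polar_map_comp]
  funext j
  simp only [Pi.add_apply, Pi.sub_apply, Pi.smul_apply, Function.comp_apply, smul_eq_mul, map_add, map_sub, map_mul]

/-- The centraliser of the subfield subgroup is generated by the field automorphism. -/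
theorem eq_field_of_centralises (hφ : ∀ c, τ c = c ↔ c ∈ Set.range φ) {n : MulAut PΩ'}
    (hn : ∀ s, n * subΩ (φ := φ) hQ hQ₀ s = subΩ (φ := φ) hQ hQ₀ s * n) :
    ∃ σ ∈ Subgroup.zpowers τ, n = fieldA hQ σ := by
  obtain ⟨g, σ, rfl⟩ := classifyA hQ n
  have h3 : IsSemi Qs (g : GL I F) σ 1 := ⟨one_ne_zero, fun v => by
    rw [semi, mem_isometryGroup.1 g.2.1, hQ.fix, one_mul]⟩
  have e3 : stdAut h3 = soA Qs g * fieldA hQ σ := by
    rw [soA_eq_stdAut, fieldA_eq]
    exact stdAut_comp _ _ h3 (s := 1) fun v => by rw [one_smul, semi_one, semi_refl]; rfl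
  set S := semi (g : GL I F) σ
  -- rational lines are preserved
  have hline : ∀ d a : I → F₀, Q0 d = 0 → polar (⇑Q0) a d = 0 → a ∉ Submodule.span F₀ {d} →
      S (φ ∘ d) ∈ Submodule.span F ({φ ∘ d, φ ∘ a} : Set (I → F)) := by
    intro d a hd had hnd
    have hD : Qs (φ ∘ d) = 0 := by rw [quadOdd_map, hd, map_zero]
    have hAD : polar (⇑Qs) (φ ∘ a) (φ ∘ d) = 0 := by rw [polar_map_comp, had, map_zero]
    have hD' : Qs (S (φ ∘ d)) = 0 := by rw [h3.2, hD, map_zero, mul_zero]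
    have hAD' : polar (⇑Qs) (S (φ ∘ a)) (S (φ ∘ d)) = 0 := by rw [h3.polar, hAD, map_zero, mul_zero]
    have e1 : soA Qs g * fieldA hQ σ * MulAut.conj (proj (sie Qs (φ ∘ d) (φ ∘ a))) =
        MulAut.conj (proj (sie Qs (φ ∘ d) (φ ∘ a))) * (soA Qs g * fieldA hQ σ) := by
      rw [← soA_omSO hQ, ← mapSO_sie hQ hQ₀ hd had]
      exact hn _
    have e2 : (soA Qs g * fieldA hQ σ) (proj (sie Qs (φ ∘ d) (φ ∘ a))) = proj (sie Qs (φ ∘ d) (φ ∘ a)) := by
      refine conj_injective hQ ((mul_left_inj (soA Qs g * fieldA hQ σ)).1 ?_)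
      rw [← e1]
      exact MulEquiv.ext fun y => by simp
    rw [← e3, stdAut_proj, semiΩ_sie hQ.gh h3 hD hAD] at e2
    have e4 := proj_injective hQ e2
    rw [inv_one, one_smul] at e4
    change sie Qs (S (φ ∘ d)) (S (φ ∘ a)) = _ at e4
    have hout : S (φ ∘ a) ∉ Submodule.span F {S (φ ∘ d)} := fun hm => hnd (by
      obtain ⟨c, hc⟩ := Submodule.mem_span_singleton.1 hm
      obtain ⟨c, rfl⟩ := σ.surjective c
      have h1 : φ ∘ a = c • (φ ∘ d) := semi_injective _ σ (by rw [semi_smul]; exact hc.symm)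
      have hd0 : d ≠ 0 := fun h0 => by
        refine semi_ne_zero (g : GL I F) σ (v := φ ∘ a) (fun ha => ?_) ?_
        · exact hnd (by rw [show a = 0 from funext fun i => φ.injective ((congrFun ha i).trans (map_zero φ).symm)]
                        exact Submodule.zero_mem _)
        · rw [h1, h0, show φ ∘ (0 : I → F₀) = 0 from funext fun _ => map_zero φ, smul_zero,
            ← zero_smul F (0 : I → F), semi_smul, map_zero, zero_smul, zero_smul]
      obtain ⟨i, hi⟩ := Function.ne_iff.1 hd0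
      refine Submodule.mem_span_singleton.2 ⟨a i / d i, funext fun j => φ.injective ?_⟩
      have hj := congrFun h1 j
      have hii := congrFun h1 i
      simp only [Function.comp_apply, Pi.smul_apply, smul_eq_mul] at hj hii ⊢
      have hdi : φ (d i) ≠ 0 := (map_ne_zero φ).2 hi
      rw [map_mul, map_div₀, hj, hii, mul_div_assoc, div_self hdi, mul_one])
    obtain ⟨v, hv, hv1⟩ := exists_polar_eq_one hQ.gh.nondeg hout
    have hvd : polar (⇑Qs) v (S (φ ∘ d)) = 0 := mem_perp.1 hv _ (Submodule.mem_span_singleton_self _)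
    have e5 := congrArg (fun A => lin A v) e4
    simp only [sie_apply hQ.gh hD' hAD', sie_apply hQ.gh hD hAD, hvd, polar_comm (⇑Qs) v (S (φ ∘ a)), hv1,
      mul_zero, sub_zero, one_smul, zero_smul] at e5
    rw [add_sub_assoc, add_right_inj] at e5
    rw [e5]
    exact sub_mem (Submodule.smul_mem _ _ (Submodule.subset_span (by simp)))
      (Submodule.smul_mem _ _ (Submodule.subset_span (by simp)))
  have heig : ∀ d : I → F₀, Q0 d = 0 → d ≠ 0 → ∃ c : F, c ≠ 0 ∧ S (φ ∘ d) = c • (φ ∘ d) := by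
    intro d hd hd0
    have h0 := hQ₀.gh
    have hdim := h0.dim
    obtain ⟨d', -, hd'Q, hdd'⟩ := exists_partner h0.nondeg (U := ⊥) (d := d)
      (mem_perp.2 fun u hu => by rw [(Submodule.mem_bot F₀).1 hu, polar_zero_right]) hd (by simpa using hd0)
    have hP := disjoint_pair hd hd'Q hdd'
    obtain ⟨a, a₁, ha, ha₁, ha0, ha₁0, haa⟩ := exists_pair_perp h0.nondeg hP (by
      have := finrank_span_pair_le (F := F₀) d d'; omega)
    obtain ⟨b, b₁, hb, -, hb0, -, hbb⟩ := exists_pair_perp h0.nondeg (disjoint_sup_pair hP ha ha₁ ha0 ha₁0 haa) (by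
      have := finrank_sup_pair_le (Submodule.span F₀ {d, d'}) a a₁
      have := finrank_span_pair_le (F := F₀) d d'
      omega)
    have hdK : d ∈ Submodule.span F₀ ({d, d'} : Set (I → F₀)) := Submodule.subset_span (by simp)
    have had : polar (⇑Q0) a d = 0 := mem_perp.1 ha d hdK
    have hbd : polar (⇑Q0) b d = 0 := mem_perp.1 hb d (Submodule.mem_sup_left hdK)
    have hna : a ∉ Submodule.span F₀ {d} := fun hm => by
      obtain ⟨c, rfl⟩ := Submodule.mem_span_singleton.1 hm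
      rw [polar_smul_left, swap0 (mem_perp.1 ha₁ d hdK)] at haa
      simp at haa
    have hda₁ : polar (⇑Q0) d a₁ = 0 := swap0 (mem_perp.1 ha₁ d hdK)
    have hba₁ : polar (⇑Q0) b a₁ = 0 := mem_perp.1 hb a₁ (Submodule.mem_sup_right (Submodule.subset_span (by simp)))
    have hnb : b ∉ Submodule.span F₀ {d} := fun hm => by
      obtain ⟨c, rfl⟩ := Submodule.mem_span_singleton.1 hm
      have h0 : c • d = 0 := Submodule.disjoint_def.1 (disjoint_sup_pair hP ha ha₁ ha0 ha₁0 haa) _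
        (Submodule.mem_sup_left (Submodule.smul_mem _ _ hdK)) hb
      rw [h0, polar_zero_left] at hbb
      exact zero_ne_one hbb
    obtain ⟨s, t, est⟩ := Submodule.mem_span_pair.1 (hline d a hd had hna)
    obtain ⟨s', t', est'⟩ := Submodule.mem_span_pair.1 (hline d b hd hbd hnb)
    have h1 := congrArg (fun z => polar (⇑Qs) z (φ ∘ a₁)) (est.trans est'.symm)
    simp only [polar_add_left, polar_smul_left, polar_map_comp, hda₁, hba₁, haa, map_zero, map_one,
      smul_eq_mul, mul_zero, mul_one, zero_add] at h1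
    rw [h1, zero_smul, add_zero] at est
    exact ⟨s, fun hs => semi_ne_zero _ σ (map_ne_zero_comp hd0) (est.symm.trans (by rw [hs, zero_smul])), est.symm⟩
  -- the standard basis
  have hsingle : ∀ i, (φ ∘ (Pi.single i 1 : I → F₀)) = Pi.single i 1 := fun i => funext fun j => by
    by_cases hj : j = i <;> simp [hj]
  have hS : ∀ i, S (Pi.single i 1) = (g : GL I F).1 *ᵥ Pi.single i 1 := fun i => by
    show (g : GL I F).1 *ᵥ (σ ∘ (Pi.single i 1 : I → F)) = _
    congr 1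
    exact funext fun j => by by_cases hj : j = i <;> simp [hj]
  have hq : ∀ i, Q0 (Pi.single (Sum.inr i) 1) = 0 := fun i => by
    rcases i with i | i <;> simp [Cfsg.quadFormOdd]
  have hne : ∀ i, (Pi.single i 1 : I → F₀) ≠ 0 := fun i => Pi.single_ne_zero_iff.2 one_ne_zero
  choose c hc0 hc using fun i => heig _ (hq i) (hne _)
  simp only [hsingle] at hc
  let i0 : Fin m := ⟨0, by have := hQ.gh.dim; simp at this; omega⟩
  let i1 : Fin m := ⟨1, by have := hQ.gh.dim; simp at this; omega⟩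
  have key : ∀ i j : Fin m ⊕ Fin m, i ≠ j → polar (⇑Q0) (Pi.single (Sum.inr i) 1) (Pi.single (Sum.inr j) 1) = 0 →
      ∀ t : F₀, σ (φ t) * c j = φ t * c i := by
    intro i j hij hp t
    have hq' : Q0 (Pi.single (Sum.inr i) 1 + t • Pi.single (Sum.inr j) 1) = 0 :=
      map_add0 (hq i) (map_smul0 (hq j) t) (by rw [polar_smul_right, hp, smul_zero])
    obtain ⟨k, -, hk⟩ := heig _ hq' fun h0 => by simpa [hij] using congrFun h0 (Sum.inr i)
    have e : φ ∘ (Pi.single (Sum.inr i) 1 + t • Pi.single (Sum.inr j) 1 : I → F₀) =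
        Pi.single (Sum.inr i) 1 + φ t • Pi.single (Sum.inr j) 1 := by
      rw [← hsingle, ← hsingle]; funext x; simp
    rw [e] at hk
    change semi _ σ _ = _ at hk
    rw [semi_add, semi_smul, show semi (g : GL I F) σ (Pi.single (Sum.inr i) 1) = _ from hc i,
      show semi (g : GL I F) σ (Pi.single (Sum.inr j) 1) = _ from hc j] at hk
    have q1 := congrFun hk (Sum.inr i)
    have q2 := congrFun hk (Sum.inr j)
    simp [hij, hij.symm] at q1 q2
    rw [q2, q1]; ring
  have hperp : ∀ i j : Fin m ⊕ Fin m, Sum.elim id id i ≠ Sum.elim id id j →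
      polar (⇑Q0) (Pi.single (Sum.inr i) 1) (Pi.single (Sum.inr j) 1) = 0 := by
    intro i j hij
    rw [coe_quadOdd, polar_odd]
    rcases i with i | i <;> rcases j with j | j <;> simp at hij <;>
      simp [Pi.single_apply, hij, Ne.symm hij]
  have hcc : ∀ i j : Fin m ⊕ Fin m, Sum.elim id id i ≠ Sum.elim id id j → c j = c i := fun i j hij => by
    have := key i j (fun h => hij (by rw [h])) (hperp i j hij) 1
    simpa using this
  have hall : ∀ i, c i = c (Sum.inl i0) := fun i => by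
    by_cases h : Sum.elim id id i = i0
    · rw [hcc (Sum.inl i1) i (by simp [h, i0, i1]), hcc (Sum.inl i0) (Sum.inl i1) (by simp [i0, i1])]
    · exact hcc (Sum.inl i0) i (by simp [Ne.symm h])
  set k := c (Sum.inl i0)
  have hσ : ∀ t : F₀, σ (φ t) = φ t := fun t => by
    have := key (Sum.inl i0) (Sum.inl i1) (by simp [i0, i1]) (hperp _ _ (by simp [i0, i1])) t
    rw [hall (Sum.inl i1)] at this
    exact mul_right_cancel₀ (hc0 _) this
  have h0 : (g : GL I F).1 *ᵥ Pi.single (Sum.inl ()) 1 = k • Pi.single (Sum.inl ()) 1 := by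
    have hsign : ∀ t : F₀, t * t = 1 → ∃ k' : F,
        (g : GL I F).1 *ᵥ Pi.single (Sum.inl ()) 1 =
          k' • Pi.single (Sum.inl ()) 1 + ((k' - k) * φ t) •
            (Pi.single (Sum.inr (Sum.inl i0)) 1 - Pi.single (Sum.inr (Sum.inr i0)) 1) := by
      intro t ht
      let z : I → F₀ := Pi.single (Sum.inl ()) 1 + t • (Pi.single (Sum.inr (Sum.inl i0)) 1 - Pi.single (Sum.inr (Sum.inr i0)) 1)
      have hz : Q0 z = 0 := by
        simp [z, Cfsg.quadFormOdd, Pi.single_apply, i0, ite_mul, mul_ite]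
        linear_combination (-1 : F₀) * ht
      obtain ⟨k', -, hk⟩ := heig z hz fun h0 => by simpa [z] using congrFun h0 (Sum.inl ())
      have e : φ ∘ z = Pi.single (Sum.inl ()) 1 +
          φ t • (Pi.single (Sum.inr (Sum.inl i0)) 1 - Pi.single (Sum.inr (Sum.inr i0)) 1) := by
        rw [← hsingle, ← hsingle, ← hsingle]; funext x; simp [z]
      rw [e] at hk
      change semi _ σ _ = _ at hk
      rw [semi_add, semi_smul, semi_sub, show semi (g : GL I F) σ (Pi.single (Sum.inr (Sum.inl i0)) 1) = _ from hc _,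
        show semi (g : GL I F) σ (Pi.single (Sum.inr (Sum.inr i0)) 1) = _ from hc _,
        show semi (g : GL I F) σ (Pi.single (Sum.inl ()) 1) = _ from hS _, hall (Sum.inr i0), hσ,
        ← eq_sub_iff_add_eq] at hk
      exact ⟨k', by rw [hk]; module⟩
    obtain ⟨k₁, hk₁⟩ := hsign 1 (one_mul 1)
    obtain ⟨k₂, hk₂⟩ := hsign (-1) (by ring)
    rw [map_one, mul_one] at hk₁
    rw [map_neg, map_one] at hk₂
    have q0 := congrFun (hk₁.symm.trans hk₂) (Sum.inl ())
    have q1 := congrFun (hk₁.symm.trans hk₂) (Sum.inr (Sum.inl i0))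
    simp at q0 q1
    have hk : k₁ = k := sub_eq_zero.1 ((mul_eq_zero.1 (show (2 : F) * (k₁ - k) = 0 by
      linear_combination q1 + q0)).resolve_left hQ.two_ne)
    rw [hk₁, hk]; simp
  have hscal : ∀ v, (g : GL I F).1 *ᵥ v = k • v := by
    have : Matrix.mulVecLin (g : GL I F).1 = k • LinearMap.id := by
      refine (Pi.basisFun F I).ext fun i => ?_
      rw [Pi.basisFun_apply, Matrix.mulVecLin_apply]
      rcases i with ⟨⟩ | i
      · exact h0
      · rw [← hS, hc i, hall i]; rfl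
    exact fun v => LinearMap.congr_fun this v
  have hg1 : g = 1 := Subtype.ext (so_scalar_eq_one hQ.card (det_so g) (mem_isometryGroup.1 g.2.1)
    (exists_ne_zero hQ.gh) hscal)
  exact ⟨σ, CfsgLib.AutPSp.mem_zpowers_of_fix hφ hσ, by rw [hg1, map_one, one_mul]⟩

omit hQ in
theorem two_dvd_card : 2 ∣ Nat.card Ω0 := by
  have h := hQ₀.gh
  have h1 : (-1 : F₀) ≠ 0 := neg_ne_zero.2 one_ne_zero
  obtain ⟨d, f, -, -, hd, hf, hdf⟩ := exists_pair_perp h.nondeg (K := (⊥ : Submodule F₀ (I → F₀)))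
    disjoint_bot_perp (by have := h.dim; simp at this ⊢; omega)
  obtain ⟨a, b, ha, hb, ha0, hb0, hab⟩ := exists_pair_perp h.nondeg (disjoint_pair hd hf hdf) (by
    have := finrank_span_pair_le (F := F₀) d f; have := h.dim; omega)
  obtain ⟨s₁, hl₁, hv₁, e₁⟩ := scale_list hd hf hdf h1
  obtain ⟨s₂, hl₂, hv₂, e₂⟩ := scale_list ha0 hb0 hab h1
  have hd0 : Nat.card F₀ ≠ 2 ∨ Fintype.card I ≠ 4 := Or.inr (by have := h.dim; omega)
  have hmem : listGL Q0 (s₁ ++ s₂) ∈ Cfsg.Omega F₀ ⇑(quadOdd F₀ m) := by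
    rw [mem_Omega_of_list h.nondeg hd0 (isoEquiv_listGL _), List.length_append, hl₁, hl₂]
    refine ⟨⟨2, rfl⟩, ?_⟩
    rw [valueProd, List.map_append, List.prod_append]
    exact ⟨(-1 : F₀)⁻¹, by rw [show (s₁.map fun u => Q0 u.1).prod = (-1 : F₀)⁻¹ from hv₁,
      show (s₂.map fun u => Q0 u.1).prod = (-1 : F₀)⁻¹ from hv₂]⟩
  let A : Ω0 := ⟨_, hmem⟩
  have hA : ∀ v, lin A v = scale Q0 d f hd hf hdf (-1) h1 (scale Q0 a b ha0 hb0 hab (-1) h1 v) := fun v => by
    have e : lin A = reflProd Q0 (s₁ ++ s₂) := by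
      show glEquiv (listGL Q0 (s₁ ++ s₂) : GL I F₀) = _
      rw [← coe_isoEquiv, isoEquiv_listGL]
    rw [e, reflProd_append, e₁, e₂]
    rfl
  have hdK : d ∈ Submodule.span F₀ ({d, f} : Set (I → F₀)) := Submodule.subset_span (by simp)
  have hfK : f ∈ Submodule.span F₀ ({d, f} : Set (I → F₀)) := Submodule.subset_span (by simp)
  have had := mem_perp.1 ha d hdK
  have haf := mem_perp.1 ha f hfK
  have hbd := mem_perp.1 hb d hdK
  have hbf := mem_perp.1 hb f hfK
  have hAA : A * A = 1 := ext_lin fun v => by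
    rw [lin_mul, hA, hA, lin_one]
    simp only [scale_apply, polar_add_left, polar_sub_left, polar_smul_left, polar_self_zero hd, polar_self_zero hf,
      polar_self_zero ha0, polar_self_zero hb0, polar_comm (⇑Q0) f d, hdf, polar_comm (⇑Q0) b a, hab, had, haf,
      hbd, hbf, swap0 had, swap0 haf, swap0 hbd, swap0 hbf, smul_eq_mul, mul_zero, mul_one, add_zero, zero_add,
      sub_zero, inv_neg, inv_one]
    module
  have hA1 : A ≠ 1 := fun e => by
    have h2 := hA d
    rw [e, lin_one] at h2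
    simp only [scale_apply, swap0 hbd, swap0 had, hdf, polar_self_zero hd, inv_neg, inv_one, zero_smul, mul_zero,
      add_zero] at h2
    have h3 := congrArg (fun z => polar (⇑Q0) z f) h2
    simp only [polar_add_left, polar_sub_left, polar_smul_left, polar_self_zero hf, hdf, smul_eq_mul] at h3
    exact hQ₀.two_ne (by linear_combination h3)
  have := orderOf_eq_prime (p := 2) (by rw [pow_two, hAA]) hA1
  rw [← this]
  exact orderOf_dvd_natCard A

theorem dvd_card_range (hφ : ∀ c, τ c = c ↔ c ∈ Set.range φ) {p : ℕ} [Fact p.Prime]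
    (hd : p ∣ Nat.card ↥(MonoidHom.eqLocus (fieldA hQ τ).toMonoidHom (MonoidHom.id PΩ'))) :
    p ∣ Nat.card (subΩ (φ := φ) hQ hQ₀).range := by
  rw [← Nat.card_congr (MonoidHom.ofInjective (subΩ_injective (φ := φ) hQ hQ₀)).toEquiv]
  rcases eq_or_ne p 2 with rfl | hp2
  · exact two_dvd_card hQ₀
  set E := MonoidHom.eqLocus (fieldA hQ τ).toMonoidHom (MonoidHom.id PΩ')
  set H := (soA Qs).range ⊓ Subgroup.centralizer {fieldA hQ τ}
  let ψ : E →* H := (MulAut.conj.comp E.subtype).codRestrict H fun k => ⟨inn_le_range hQ ⟨k.1, rfl⟩,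
    Subgroup.mem_centralizer_singleton_iff.2 (MulEquiv.ext fun y => by
      have hk : fieldA hQ τ k.1 = k.1 := k.2
      simp [map_mul, hk])⟩
  have hEH : Nat.card E ∣ Nat.card H := Subgroup.card_dvd_of_injective ψ fun a b h =>
    Subtype.ext (conj_injective hQ (congrArg Subtype.val h))
  have hinj : Function.Injective ((soA Qs).comp (mapSO hQ.two_ne φ)) :=
    (soA_injective hQ.gh hQ.card).comp (mapSO_injective _)
  have hH : Nat.card H = 2 * Nat.card Ω0 := by
    show Nat.card ↥((soA Qs).range ⊓ Subgroup.centralizer {fieldA hQ τ}) = _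
    rw [centralizer_eq hQ hφ, ← Nat.card_congr (MonoidHom.ofInjective hinj).toEquiv, card_so hQ₀,
      Nat.card_congr (Equiv.ofBijective _ ⟨proj_injective hQ₀, proj_surjective⟩)]
  exact ((Fact.out : p.Prime).dvd_mul.1 (hH ▸ hd.trans hEH)).resolve_left fun h =>
    hp2 ((Nat.prime_dvd_prime_iff_eq Fact.out Nat.prime_two).1 h)

/-- Local balance for a standard field automorphism of prime order. -/
theorem core_field_iff (hφ : ∀ c, τ c = c ↔ c ∈ Set.range φ) {p : ℕ} [Fact p.Prime] (hτ : τ ^ p = 1)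
    (A : Subgroup (MulAut PΩ')) (hinn : ∀ k : PΩ', MulAut.conj k ∈ A) :
    Cfsg.pPrimeCore p ↥(A ⊓ Subgroup.centralizer {fieldA hQ τ}) ≠ ⊥ ↔
      Nat.Coprime p (Nat.card ↥(MonoidHom.eqLocus (fieldA hQ τ).toMonoidHom (MonoidHom.id PΩ'))) := by
  constructor
  · intro h
    rw [(Fact.out : p.Prime).coprime_iff_not_dvd]
    intro hd
    refine h (CfsgLib.LocalBalance.core_eq_bot p A _ (soA Qs).range (subΩ (φ := φ) hQ hQ₀).range
      (soA_range_normal hQ) ?_ ?_ ?_ ?_ ?_)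
    · rintro _ ⟨s, rfl⟩
      exact ⟨_, rfl⟩
    · rintro _ ⟨s, rfl⟩
      obtain ⟨k, hk⟩ := subΩ_mem_inn (φ := φ) hQ hQ₀ s
      exact ⟨hk ▸ hinn k, Subgroup.mem_centralizer_singleton_iff.2
        ((commute_field_iff hQ hφ _).2 ⟨_, rfl⟩)⟩
    · intro n hn
      obtain ⟨σ, hσ, rfl⟩ := eq_field_of_centralises hQ hQ₀ hφ fun s => hn _ ⟨s, rfl⟩
      obtain ⟨k, rfl⟩ := Subgroup.mem_zpowers_iff.1 hσ
      rw [← map_pow, ← zpow_natCast, ← _root_.zpow_mul, mul_comm, _root_.zpow_mul, zpow_natCast, hτ,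
        _root_.one_zpow, map_one]
    · rintro _ ⟨g, rfl⟩ hg _ ⟨s, rfl⟩
      obtain ⟨g₀, rfl⟩ := (commute_field_iff hQ hφ g).1 hg
      have hm : spinSO hQ₀ (g₀ * omSO hQ₀ s * g₀⁻¹) = 1 := by
        rw [map_mul, map_mul, map_inv, (spinSO_eq_one_iff hQ₀ (omSO hQ₀ s)).2 s.2, mul_one, mul_inv_cancel]
      refine ⟨⟨_, (spinSO_eq_one_iff hQ₀ _).1 hm⟩, ?_⟩
      rw [subΩ_apply, subΩ_apply, ← map_inv, ← map_mul, ← map_mul, ← map_inv (mapSO hQ.two_ne φ),
        ← map_mul (mapSO hQ.two_ne φ), ← map_mul (mapSO hQ.two_ne φ)]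
      exact congrArg (fun x => soA Qs (mapSO hQ.two_ne φ x)) (Subtype.ext rfl)
    · intro M hM hMR hMp
      haveI : (M.comap (subΩ (φ := φ) hQ hQ₀)).Normal := ⟨fun y hy s => by
        rw [Subgroup.mem_comap, map_mul, map_mul, map_inv]
        exact hMR _ ⟨s, rfl⟩ _ hy⟩
      rcases le_center_or_eq_top hQ₀.gh (M.comap (subΩ (φ := φ) hQ hQ₀)) with hc | hc
      · rw [Subgroup.eq_bot_iff_forall]
        intro y hy
        obtain ⟨s, rfl⟩ := hM hy
        have : proj s = 1 := (QuotientGroup.eq_one_iff s).2 (hc hy)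
        rw [proj_injective hQ₀ (this.trans (map_one proj).symm), map_one]
      · have hle : (subΩ (φ := φ) hQ hQ₀).range ≤ M := by
          rintro _ ⟨s, rfl⟩
          have : s ∈ M.comap (subΩ (φ := φ) hQ hQ₀) := by rw [hc]; trivial
          exact this
        exact absurd ((dvd_card_range hQ hQ₀ hφ hd).trans (Subgroup.card_dvd_of_le hle)) hMp
  · intro h
    obtain ⟨L, hL⟩ := exists_line hQ₀.gh
    obtain ⟨d, a, hd, ha, hd0, hnd, -⟩ := hL.exists_basis
    have hdQ := hL.2 d hd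
    have had : polar (⇑Q0) a d = 0 := hL.polar_eq ha hd
    refine CfsgLib.LocalBalance.core_ne_bot_of_coprime p (conj_injective hQ) A hinn _
      ⟨proj (sie Qs (φ ∘ d) (φ ∘ a)), ?_, ?_⟩ h
    · intro h1
      have h2 : subΩ (φ := φ) hQ hQ₀ (sie Q0 d a) = 1 := by
        rw [subΩ_apply, mapSO_sie hQ hQ₀ hdQ had, soA_omSO hQ, h1, map_one]
      exact hnd ((sie_eq_one_iff hQ₀.gh hdQ hd0 had).1 (subΩ_injective hQ hQ₀ (h2.trans (map_one _).symm)))
    · have hf : ∀ v : I → F₀, semi (1 : GL I F) τ (φ ∘ v) = φ ∘ v := fun v => by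
        rw [semi_one]
        exact funext fun i => (hφ _).2 ⟨v i, rfl⟩
      rw [fieldA_eq, stdAut_proj, semiΩ_sie hQ.gh _ (by rw [quadOdd_map, hdQ, map_zero])
        (by rw [polar_map_comp, had, map_zero]), hf, hf, inv_one, one_smul]

omit hQ₀ in
/-- A non-inner-diagonal automorphism of prime order `p ≠ r` is a field automorphism. -/
theorem exists_field_form {p r : ℕ} [Fact p.Prime] [Fact r.Prime] [CharP F r]
    (x : MulAut PΩ') (hord : orderOf x = p) (hnot : ¬ Cfsg.IsSimilarityInducedAutPOmega (⇑Qs) x) :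
    ∃ (α : MulAut PΩ') (τ : RingAut F), τ ≠ 1 ∧ τ ^ p = 1 ∧ orderOf τ = p ∧ α * x * α⁻¹ = fieldA hQ τ := by
  obtain ⟨g, τ, rfl⟩ := classifyA hQ x
  have hpow : (soA Qs g * fieldA hQ τ) ^ p = 1 := by rw [← hord]; exact pow_orderOf_eq_one _
  have hτ1 : τ ≠ 1 := fun h => hnot ((simInduced_iff hQ _).2 ⟨g, by rw [h, map_one, mul_one]⟩)
  have hτp : τ ^ p = 1 := by
    rw [pow_soA_mul_fieldA hQ] at hpow
    exact (decompositionA hQ hpow).2
  have hτo : orderOf τ = p := orderOf_eq_prime hτp hτ1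
  obtain ⟨f, hr, hF⟩ := FiniteField.card F r
  obtain ⟨hdvd, hfield⟩ := CfsgLib.AutPSL.fixed_field_facts.{_, 0} hr hF τ
  haveI : Fintype (GaloisField r ((f : ℕ) / p)) := Fintype.ofFinite _
  obtain ⟨φ', hφ'⟩ := hfield (GaloisField r ((f : ℕ) / p)) (by
    rw [hτo, ← Nat.card_eq_fintype_card, GaloisField.card]
    rw [hτo] at hdvd
    have := Nat.div_pos (Nat.le_of_dvd f.pos hdvd) (Fact.out : p.Prime).pos
    omega)
  obtain ⟨k, hk⟩ := exists_conj_field hQ hφ' g (by rw [hτo]; exact hpow)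
  refine ⟨(soA Qs k)⁻¹, τ, hτ1, hτp, hτo, ?_⟩
  rw [hk]
  group

end CfsgLib.AutPO

namespace CfsgLib.AutPO

open QuadraticMap Matrix
open CfsgLib.Forms

theorem balance_odd {F : Type*} [Field F] [Fintype F] {r : ℕ} [Fact r.Prime] [CharP F r]
    (hodd : Odd (Fintype.card F)) {m : ℕ} (hm : 3 ≤ m) {p : ℕ} [Fact p.Prime] :
    ∀ (A : Subgroup (MulAut (Cfsg.POmega F ⇑(quadOdd F m)))),
      (∀ k : Cfsg.POmega F ⇑(quadOdd F m), MulAut.conj k ∈ A) →
      ∀ x : MulAut (Cfsg.POmega F ⇑(quadOdd F m)), orderOf x = p →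
        ¬ Cfsg.IsSimilarityInducedAutPOmega (⇑(quadOdd F m)) x →
        (Cfsg.pPrimeCore p ↥(A ⊓ Subgroup.centralizer {x}) ≠ ⊥ ↔
          (Cfsg.IsFieldAutClassPOmega (⇑(quadOdd F m)) x ∧
            Nat.Coprime p (Nat.card ↥(MonoidHom.eqLocus x.toMonoidHom
              (MonoidHom.id (Cfsg.POmega F ⇑(quadOdd F m))))))) := by
  intro A hinn x hord hnot
  have hQ := go_odd hodd hm
  obtain ⟨α, τ, hτ1, hτp, hτo, hα⟩ := exists_field_form hQ (p := p) (r := r) x hord hnot
  have hclass : Cfsg.IsFieldAutClassPOmega (⇑(quadOdd F m)) x :=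
    ⟨α, fieldA hQ τ, τ, fun h => hτ1 h, fun s s' e => by
      refine fieldA_induced hQ τ s s' ?_
      rw [e, inv_one, Units.val_one, one_mul, mul_one], hα⟩
  rw [and_iff_right hclass, ← CfsgLib.LocalBalance.core_conj_iff p A α x,
    ← CfsgLib.LocalBalance.card_eqLocus_conj α x, hα]
  obtain ⟨f, hr, hF⟩ := FiniteField.card F r
  obtain ⟨hdvd, hfield⟩ := CfsgLib.AutPSL.fixed_field_facts.{_, 0} hr hF τ
  haveI : Fintype (GaloisField r ((f : ℕ) / p)) := Fintype.ofFinite _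
  have hpos : 0 < (f : ℕ) / p := by
    rw [hτo] at hdvd
    exact Nat.div_pos (Nat.le_of_dvd f.pos hdvd) (Fact.out : p.Prime).pos
  obtain ⟨φ, hφ⟩ := hfield (GaloisField r ((f : ℕ) / p)) (by
    rw [hτo, ← Nat.card_eq_fintype_card, GaloisField.card]
    omega)
  have h20 : (2 : GaloisField r ((f : ℕ) / p)) ≠ 0 := fun h0 =>
    hQ.two_ne (by rw [← map_ofNat φ 2, h0, map_zero])
  exact core_field_iff hQ (go_odd (CfsgLib.OrthOrder.odd_of_two_ne_zero h20) hm) hφ hτp _ fun k =>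
    ⟨MulAut.conj (α.symm k), hinn _, MulEquiv.ext fun y => by simp⟩

end CfsgLib.AutPO
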