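import Cfsg.Agent.AutPO.OddSplit
import Cfsg.Agent.AutPSL.CosetGeneral
set_option autoImplicit false
set_option quotPrecheck false
set_option linter.unusedSectionVars false

/-!
The classes of field automorphisms of prime order of `PΩ_(2m+1)(q)`.
-/

namespace CfsgLib.AutPO

open QuadraticMap Matrix
open CfsgLib.Forms

variable {F : Type*} [Field F] [Fintype F] {m : ℕ}

local notation "Qs" => (quadOdd F m)

theorem eq_fieldA_of {ι : Type} [Fintype ι] [DecidableEq ι] {Q : QuadraticForm F (ι → F)} (hQ : GO Q)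
    {τ : RingAut F} {β : MulAut (Cfsg.POmega F ⇑Q)} (h : Cfsg.IsFieldAutPOmegaOf (⇑Q) τ β) :
    β = fieldA hQ τ :=
  eq_stdAut_of_induced _ fun s s' e => h s s' (by rw [e, inv_one, Units.val_one, one_mul, mul_one])

theorem exists_field_conj (hQ : GO (quadOdd F m)) {x : MulAut (Cfsg.POmega F ⇑(quadOdd F m))}
    (hx : Cfsg.IsFieldAutClassPOmega (⇑(quadOdd F m)) x) :
    ∃ (α : MulAut (Cfsg.POmega F ⇑(quadOdd F m))) (σ : RingAut F),
      α * x * α⁻¹ = fieldA hQ σ ∧ σ ≠ 1 ∧ orderOf σ = orderOf x := by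
  obtain ⟨α, φ, σ, hσ, hφ, e⟩ := hx
  rw [eq_fieldA_of hQ hφ] at e
  refine ⟨α, σ, e, hσ, ?_⟩
  rw [← orderOf_injective _ (fieldA_injective hQ) σ, ← e]
  exact orderOf_injective (MulAut.conj α).toMonoidHom (MulAut.conj α).injective x

theorem field_class_facts (hodd : Odd (Fintype.card F)) (hm : 3 ≤ m) {p f : ℕ} [Fact p.Prime]
    (hF : Fintype.card F = p ^ f) (hf : 1 ≤ f) {r : ℕ} (hr : r.Prime)
    (F₀ : Type*) [Field F₀] [Fintype F₀] (hF₀ : Fintype.card F₀ = p ^ (f / r)) :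
    ∀ x : MulAut (Cfsg.POmega F ⇑(quadOdd F m)),
      Cfsg.IsFieldAutClassPOmega (⇑(quadOdd F m)) x → orderOf x = r →
      r ∣ f ∧
      Nonempty (↥(simSub (⇑(quadOdd F m)) ⊓ Subgroup.centralizer {x}) ≃* ↥(simSub (⇑(quadOdd F₀ m)))) ∧
      (Odd r → Cfsg.splitClassCount (simSub (⇑(quadOdd F m))) (Cfsg.Inn (Cfsg.POmega F ⇑(quadOdd F m))) x = 1) ∧
      (r = 2 → Cfsg.splitClassCount (simSub (⇑(quadOdd F m))) (Cfsg.Inn (Cfsg.POmega F ⇑(quadOdd F m))) x = 2) := by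
  intro x hx hxr
  have hQ := go_odd hodd hm
  obtain ⟨α, σ, hα, -, hσ⟩ := exists_field_conj hQ hx
  rw [hxr] at hσ
  obtain ⟨hrf, hfield⟩ := CfsgLib.AutPSL.fixed_field_facts (Fact.out : p.Prime) hF σ
  rw [hσ] at hrf hfield
  obtain ⟨φ, hφ⟩ := hfield F₀ hF₀
  have hodd₀ : Odd (Fintype.card F₀) := by
    rw [hF₀]
    rw [hF] at hodd
    exact ((Nat.odd_pow_iff (by omega)).1 hodd).pow
  have hQ₀ := go_odd hodd₀ hm
  haveI hN := soA_range_normal hQ
  have hcard : Fintype.card F = Fintype.card F₀ ^ r := by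
    rw [hF, hF₀, ← pow_mul, Nat.div_mul_cancel hrf]
  obtain ⟨h1, h2⟩ := splitClassCount_value hQ hφ hcard
  rw [simSub_eq hQ, simSub_eq hQ₀, ← CfsgLib.AutPSL.splitClassCount_conj _ _ x α, hα]
  refine ⟨hrf, ?_, h1, fun h => h2 (by rw [h]; exact even_two)⟩
  have hmap : ((soA Qs).range ⊓ Subgroup.centralizer {x}).map (MulAut.conj α).toMonoidHom =
      (soA Qs).range ⊓ Subgroup.centralizer {fieldA hQ σ} := by
    rw [← hα]
    ext y
    constructor
    · rintro ⟨z, ⟨hz1, hz2⟩, rfl⟩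
      refine ⟨hN.conj_mem z hz1 α, Subgroup.mem_centralizer_singleton_iff.mpr ?_⟩
      have hz : z * x = x * z := Subgroup.mem_centralizer_singleton_iff.mp hz2
      change MulAut.conj α z * MulAut.conj α x = MulAut.conj α x * MulAut.conj α z
      rw [← map_mul, ← map_mul, hz]
    · rintro ⟨hy1, hy2⟩
      refine ⟨α⁻¹ * y * α, ⟨by simpa using hN.conj_mem y hy1 α⁻¹,
        Subgroup.mem_centralizer_singleton_iff.mpr ?_⟩, ?_⟩
      · have hy : y * (α * x * α⁻¹) = (α * x * α⁻¹) * y := Subgroup.mem_centralizer_singleton_iff.mp hy2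
        calc α⁻¹ * y * α * x = α⁻¹ * (y * (α * x * α⁻¹)) * α := by group
          _ = _ := by rw [hy]; group
      · change α * (α⁻¹ * y * α) * α⁻¹ = y
        group
  have hinj : Function.Injective ((soA Qs).comp (mapSO hQ.two_ne φ)) :=
    (soA_injective hQ.gh hQ.card).comp (mapSO_injective _)
  exact ⟨(((Subgroup.equivMapOfInjective _ (MulAut.conj α).toMonoidHom (MulAut.conj α).injective).trans
    (MulEquiv.subgroupCongr (hmap.trans (centralizer_eq hQ hφ)))).trans (MonoidHom.ofInjective hinj).symm).trans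
      (MonoidHom.ofInjective (soA_injective hQ₀.gh hQ₀.card))⟩

theorem coset_conj_iff (hodd : Odd (Fintype.card F)) (hm : 3 ≤ m) {r : ℕ} (hr : r.Prime) :
    ∀ x δ : MulAut (Cfsg.POmega F ⇑(quadOdd F m)),
      Cfsg.IsFieldAutClassPOmega (⇑(quadOdd F m)) x → orderOf x = r → δ ∈ simSub (⇑(quadOdd F m)) →
      (orderOf (δ * x) = r ↔ Cfsg.IsConjUnder (simSub (⇑(quadOdd F m))) x (δ * x)) := by
  intro x δ hx hxr hδ
  have hQ := go_odd hodd hm
  haveI hN := soA_range_normal hQ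
  rw [simSub_eq hQ] at hδ ⊢
  constructor
  swap
  · rintro ⟨h, -, e⟩
    rw [e, ← hxr]
    exact orderOf_injective (MulAut.conj h).toMonoidHom (MulAut.conj h).injective x
  intro hy
  obtain ⟨α, σ, hα, -, hσ⟩ := exists_field_conj hQ hx
  rw [hxr] at hσ
  obtain ⟨g, hg⟩ : α * δ * α⁻¹ ∈ (soA Qs).range := hN.conj_mem δ hδ α
  have hy' : α * (δ * x) * α⁻¹ = soA Qs g * fieldA hQ σ := by rw [hg, ← hα]; group
  obtain ⟨p, hp⟩ := CharP.exists F
  haveI : Fact p.Prime := ⟨CharP.char_is_prime F p⟩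
  obtain ⟨f, -, hF⟩ := FiniteField.card F p
  obtain ⟨hrf, hfield⟩ := CfsgLib.AutPSL.fixed_field_facts.{_, 0} (Fact.out : p.Prime) hF σ
  rw [hσ] at hrf hfield
  haveI : Fintype (GaloisField p ((f : ℕ) / r)) := Fintype.ofFinite _
  obtain ⟨φ, hφ⟩ := hfield (GaloisField p ((f : ℕ) / r)) (by
    rw [← Nat.card_eq_fintype_card, GaloisField.card]
    have := Nat.div_pos (Nat.le_of_dvd f.pos hrf) hr.pos
    omega)
  obtain ⟨k, hk⟩ := exists_conj_field hQ hφ g (by
    rw [← hy', hσ, ← hy, ← orderOf_injective (MulAut.conj α).toMonoidHom (MulAut.conj α).injective (δ * x)]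
    exact pow_orderOf_eq_one _)
  rw [← CfsgLib.AutPSL.isConjUnder_conj_iff _ α, hy', hα]
  exact ⟨_, ⟨k, rfl⟩, hk⟩

end CfsgLib.AutPO
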