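import Cfsg.Agent.AutPO.OddStd
import Cfsg.Agent.AutPSL.FixedField
import Cfsg.Agent.AutPSL.Descent
import Cfsg.Agent.AutPSL.FieldAut
import Cfsg.Agent.Forms.Classify
set_option autoImplicit false
set_option quotPrecheck false
set_option linter.unusedSectionVars false

/-!
Field automorphisms of `PΩ_(2m+1)(q)`: descent and centralisers.
-/

namespace CfsgLib.AutPO

open QuadraticMap Matrix
open CfsgLib.Forms

variable {F : Type*} [Field F] [Fintype F] {F₀ : Type*} [Field F₀] [Fintype F₀] {m : ℕ}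
  {τ : RingAut F} {φ : F₀ →+* F}

local notation "I" => (Unit ⊕ (Fin m ⊕ Fin m))
local notation "Qs" => (quadOdd F m)
local notation "Q0" => (quadOdd F₀ m)
local notation "SO'" => (Cfsg.specialIsometryGL F ⇑(quadOdd F m))
local notation "SO0" => (Cfsg.specialIsometryGL F₀ ⇑(quadOdd F₀ m))

/-- Two forms agreeing on the rational vectors are equal. -/
theorem quad_ext (h2 : (2 : F) ≠ 0) {A B : QuadraticForm F (I → F)}
    (h : ∀ v : I → F₀, A (φ ∘ v) = B (φ ∘ v)) : A = B := by
  classical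
  have hs : ∀ i, φ ∘ (Pi.single i 1 : I → F₀) = Pi.single i 1 := fun i => funext fun j => by
    by_cases hj : j = i <;> simp [hj]
  have hp : polarBilin A = polarBilin B := by
    refine LinearMap.BilinForm.ext_basis (Pi.basisFun F I) fun i j => ?_
    simp only [Pi.basisFun_apply, polarBilin_apply_apply, QuadraticMap.polar]
    rw [← hs i, ← hs j, h, h, show φ ∘ Pi.single i (1 : F₀) + φ ∘ Pi.single j (1 : F₀) =
      φ ∘ (Pi.single i 1 + Pi.single j 1) from funext fun x => (map_add φ _ _).symm, h]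
  refine QuadraticMap.ext fun v => ?_
  have e := LinearMap.congr_fun (LinearMap.congr_fun hp v) v
  simp only [polarBilin_apply_apply, polar_self, nsmul_eq_mul, Nat.cast_ofNat] at e
  exact mul_left_cancel₀ h2 e

/-- A rational matrix acts as the base change. -/
theorem map_mulVec_comp (M : Matrix I I F₀) (v : I → F₀) : M.map φ *ᵥ (φ ∘ v) = φ ∘ (M *ᵥ v) := by
  funext i
  simp [Matrix.mulVec, dotProduct, map_mul, map_sum]

/-- Extension of scalars on the special orthogonal groups. -/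
def mapSO (h2 : (2 : F) ≠ 0) (φ : F₀ →+* F) : SO0 →* SO' where
  toFun b := ⟨Units.map φ.mapMatrix.toMonoidHom (b : GL I F₀), by
    refine ⟨mem_isometryGroup.2 fun v => ?_, MonoidHom.mem_ker.2 (Units.ext ?_)⟩
    · have e : (Qs).comp (Matrix.mulVecLin ((b : GL I F₀).1.map φ)) = Qs := quad_ext h2 (φ := φ) fun w => by
        rw [QuadraticMap.comp_apply, Matrix.mulVecLin_apply, map_mulVec_comp, quadOdd_map, quadOdd_map,
          mem_isometryGroup.1 b.2.1]
      exact QuadraticMap.congr_fun e v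
    · show (φ.mapMatrix (b : GL I F₀).1).det = 1
      rw [← RingHom.map_det, det_so, map_one]⟩
  map_one' := Subtype.ext (map_one _)
  map_mul' _ _ := Subtype.ext (map_mul _ _ _)

theorem coe_mapSO (h2 : (2 : F) ≠ 0) (b : SO0) :
    ((mapSO h2 φ b : GL I F) : Matrix I I F) = (b : GL I F₀).1.map φ := rfl

theorem mapSO_injective (h2 : (2 : F) ≠ 0) : Function.Injective (mapSO (m := m) h2 φ) := fun a b h =>
  Subtype.ext (Units.ext (Matrix.map_injective φ.injective
    (congrArg (fun x : SO' => ((x : GL I F) : Matrix I I F)) h)))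

variable (hQ : GO (quadOdd F m))
include hQ

theorem soA_mul_fieldA_eq (a : SO') (τ : RingAut F) {b : SO'} (h : a = b * (fieldSO hQ τ b)⁻¹) :
    soA Qs a * fieldA hQ τ = soA Qs b * fieldA hQ τ * (soA Qs b)⁻¹ := by
  rw [h, map_mul, map_inv, eq_mul_inv_iff_mul_eq, mul_assoc _ (fieldA hQ τ), fieldA_mul_soA hQ]
  group

/-- The twisted power. -/
def normSO (τ : RingAut F) (a : SO') : ℕ → SO'
  | 0 => 1
  | k + 1 => a * fieldSO hQ τ (normSO τ a k)

theorem pow_soA_mul_fieldA (a : SO') (τ : RingAut F) :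
    ∀ k : ℕ, (soA Qs a * fieldA hQ τ) ^ k = soA Qs (normSO hQ τ a k) * fieldA hQ (τ ^ k)
  | 0 => by simp [normSO]
  | k + 1 => by
    rw [pow_succ', pow_soA_mul_fieldA a τ k, mul_assoc, ← mul_assoc (fieldA hQ τ), fieldA_mul_soA hQ, normSO,
      map_mul, pow_succ' τ, map_mul]
    simp only [mul_assoc]

/-- Descent: a norm-one special isometry is a coboundary. -/
theorem exists_coboundary_SO (hφ : ∀ c, τ c = c ↔ c ∈ Set.range φ) (a : SO')
    (hN : normSO hQ τ a (orderOf τ) = 1) : ∃ b : SO', a = b * (fieldSO hQ τ b)⁻¹ := by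
  classical
  have h2 := hQ.two_ne
  let e := Fintype.equivFin I
  let re : GL I F →* GL (Fin (Fintype.card I)) F :=
    Units.map (Matrix.reindexAlgEquiv F F e).toRingEquiv.toMonoidHom
  have re_inj : Function.Injective re := fun x y hxy =>
    Units.ext ((Matrix.reindex e e).injective (congrArg Units.val hxy))
  let fgl : GL I F →* GL I F := Units.map (τ : F →+* F).mapMatrix.toMonoidHom
  have refld : ∀ x, re (fgl x) = CfsgLib.AutPSL.fieldGL τ (re x) := fun x =>
    Units.ext (Matrix.ext fun _ _ => rfl)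
  have hn : ∀ k, re (normSO hQ τ a k).1 = CfsgLib.AutPSL.normSeq (re a.1) τ k := by
    intro k
    induction k with
    | zero => exact map_one _
    | succ k ih =>
      show re (a.1 * fgl (normSO hQ τ a k).1) = _
      rw [map_mul, refld, ih]; rfl
  obtain ⟨h', hh'⟩ := CfsgLib.AutPSL.exists_coboundary τ (re a.1) (by rw [← hn, hN]; exact map_one _)
  obtain ⟨h, rfl⟩ : ∃ h, re h = h' :=
    ⟨Units.map (Matrix.reindexAlgEquiv F F e).symm.toRingEquiv.toMonoidHom h',
      Units.ext ((Matrix.reindexAlgEquiv F F e).apply_symm_apply h'.1)⟩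
  have hh : a.1 = h * (fgl h)⁻¹ := re_inj (by rw [hh', map_mul, map_inv, refld])
  have hgh : h.1 = (a : GL I F).1 * h.1.map τ := by
    have : h = a.1 * fgl h := by rw [hh, inv_mul_cancel_right]
    exact congrArg Units.val this
  -- the pulled back form is rational on rational vectors
  let Q' : QuadraticForm F (I → F) := (Qs).comp (Matrix.mulVecLin h.1)
  have hQ' : ∀ v, Q' (τ ∘ v) = τ (Q' v) := fun v => by
    show Qs (h.1 *ᵥ (τ ∘ v)) = τ (Qs (h.1 *ᵥ v))
    conv_lhs => rw [hgh, ← mulVec_mulVec, map_mulVec', mem_isometryGroup.1 a.2.1, hQ.fix]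
  have hrat : ∀ v : I → F₀, ∃ d, φ d = Q' (φ ∘ v) := fun v => by
    refine (hφ _).1 ?_
    rw [← hQ']
    congr 1
    exact funext fun i => (hφ _).2 ⟨v i, rfl⟩
  choose q hq using hrat
  have hadd : ∀ v w : I → F₀, φ ∘ (v + w) = φ ∘ v + φ ∘ w := fun v w => funext fun i => map_add φ _ _
  have hsmul : ∀ (c : F₀) (v : I → F₀), φ ∘ (c • v) = φ c • (φ ∘ v) :=
    fun c v => funext fun i => map_mul φ _ _
  have hqp : ∀ v w, φ (polar q v w) = polar Q' (φ ∘ v) (φ ∘ w) := fun v w => by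
    simp only [QuadraticMap.polar, map_sub, hq, hadd]
  let Q₀ : QuadraticForm F₀ (I → F₀) := QuadraticMap.ofPolar q
    (fun c v => φ.injective (by rw [hq, hsmul, QuadraticMap.map_smul, smul_eq_mul, smul_eq_mul, map_mul, map_mul, hq]))
    (fun v v' w => φ.injective (by rw [map_add, hqp, hqp, hqp, hadd, polar_add_left]))
    (fun c v w => φ.injective (by rw [hqp, hsmul, polar_smul_left, smul_eq_mul, smul_eq_mul, map_mul, hqp]))
  have hQ₀ : ∀ v, φ (Q₀ v) = Q' (φ ∘ v) := hq
  have h20 : (2 : F₀) ≠ 0 := fun h0 => h2 (by rw [← map_ofNat φ 2, h0, map_zero])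
  have hnd : (polarBilin Q₀).Nondegenerate := by
    have key : ∀ x, (∀ y, polar Q₀ x y = 0) → x = 0 := fun x hx => by
      have h0 : ∀ i, polar Qs (h.1 *ᵥ (φ ∘ x)) (h.1 *ᵥ Pi.single i 1) = 0 := fun i => by
        have h1 : φ (polar Q₀ x (Pi.single i 1)) = 0 := by rw [hx, map_zero]
        change φ (polar q x (Pi.single i 1)) = 0 at h1
        rw [hqp, show φ ∘ (Pi.single i 1 : I → F₀) = Pi.single i 1 from funext fun j => by
          by_cases hj : j = i <;> simp [hj]] at h1
        simpa [Q', QuadraticMap.polar, mulVec_add] using h1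
      have h3 : ∀ y, polar Qs (h.1 *ᵥ (φ ∘ x)) (h.1 *ᵥ y) = 0 := fun y => by
        have : (polarBilin Qs (h.1 *ᵥ (φ ∘ x))).comp (Matrix.mulVecLin h.1) = 0 :=
          (Pi.basisFun F I).ext fun i => by simpa using h0 i
        exact LinearMap.congr_fun this y
      have h4 : h.1 *ᵥ (φ ∘ x) = 0 := polar_ext hQ.gh.nondeg fun z => by
        obtain ⟨y, rfl⟩ : ∃ y, h.1 *ᵥ y = z :=
          ⟨(h⁻¹).1 *ᵥ z, by rw [mulVec_mulVec, Units.mul_inv, one_mulVec]⟩
        exact h3 y
      have h5 : φ ∘ x = 0 := by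
        have := congrArg ((h⁻¹).1 *ᵥ ·) h4
        simpa [mulVec_mulVec] using this
      exact funext fun i => φ.injective ((congrFun h5 i).trans (map_zero φ).symm)
    exact ⟨fun x hx => key x hx, fun x hx => key x fun y => (polar_comm _ _ _).trans (hx y)⟩
  let bs := Pi.basisFun F₀ I
  set c := (gram (⇑Q₀) bs).det * (gram (⇑Q0) bs).det
  have hc : c ≠ 0 := mul_ne_zero (det_gram_ne_zero hnd bs) (det_gram_ne_zero (nondegenerate_quadOdd m h20) bs)
  have hnd2 : (polarBilin (c • Q0)).Nondegenerate := by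
    have key : ∀ x, (∀ y, polar (⇑(c • Q0)) x y = 0) → x = 0 := fun x hx =>
      polar_ext (nondegenerate_quadOdd m h20) fun y => by
        have := hx y
        rw [FunLike.coe_smul, polar_smul, smul_eq_mul, mul_eq_zero] at this
        exact this.resolve_left hc
    exact ⟨fun x hx => key x hx, fun x hx => key x fun y => (polar_comm _ _ _).trans (hx y)⟩
  obtain ⟨g, hg⟩ := exists_isometry_of_isSquare h20 hnd hnd2 bs (by
    have e : gram (⇑(c • Q0)) bs = c • gram (⇑Q0) bs := by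
      ext i j; simp [Forms.gram, FunLike.coe_smul, polar_smul]
    rw [e, det_smul]
    refine ⟨c ^ (m + 1), ?_⟩
    rw [show Fintype.card I = 2 * m + 1 by simp; omega]
    ring)
  let P₀ : GL I F₀ := glEquiv.symm g
  have hP₀ : ∀ v, P₀.1 *ᵥ v = g v := fun v => by
    rw [← glEquiv_apply, MulEquiv.apply_symm_apply]
  let P : GL I F := Units.map φ.mapMatrix.toMonoidHom P₀
  have hQP : Q' = (φ c) • (Qs).comp (Matrix.mulVecLin P.1) := quad_ext h2 (φ := φ) fun v => by
    rw [← hQ₀, ← hg v]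
    show φ (c * Q0 (g v)) = φ c * Qs (P₀.1.map φ *ᵥ (φ ∘ v))
    rw [map_mulVec_comp, quadOdd_map, hP₀, map_mul]
  let k₀ := h * P⁻¹
  have hk₀ : ∀ w, Qs (k₀.1 *ᵥ w) = φ c * Qs w := fun w => by
    have := QuadraticMap.congr_fun hQP ((P⁻¹).1 *ᵥ w)
    simp only [Q', QuadraticMap.comp_apply, Matrix.mulVecLin_apply, _root_.smul_apply, smul_eq_mul, mulVec_mulVec,
      Units.mul_inv, one_mulVec] at this
    rw [Units.val_mul]
    exact this
  obtain ⟨b, s, hs, -, hb⟩ := exists_so_smul hQ.gh hQ.card ((map_ne_zero φ).2 hc) hk₀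
  have hbk : k₀.1 = s • b.1.1 := Matrix.ext_iff_mulVec.2 fun v => by rw [smul_mulVec]; exact hb v
  have hfP : fgl P = P := Units.ext (Matrix.ext fun i j => (hφ _).2 ⟨_, rfl⟩)
  have hk : a.1.1 * k₀.1.map τ = k₀.1 := by
    have h1 : a.1 * fgl k₀ = k₀ := by
      simp only [k₀, map_mul, map_inv, hfP, ← mul_assoc]
      rw [hh, inv_mul_cancel_right]
    exact congrArg Units.val h1
  have hτs : τ s ≠ 0 := (map_ne_zero τ).2 hs
  have hx : ∀ v, ((b⁻¹ * (a * fieldSO hQ τ b) : SO') : GL I F).1 *ᵥ v = (s / τ s) • v := fun v => by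
    have e1 : (a : GL I F).1 * (fieldSO hQ τ b : GL I F).1 = (s / τ s) • b.1.1 := by
      have e0 : (s • b.1.1).map τ = τ s • b.1.1.map τ := by ext i j; simp
      rw [hbk, e0, Matrix.mul_smul] at hk
      rw [coe_fieldSO, div_eq_inv_mul, ← smul_smul, ← hk, inv_smul_smul₀ hτs]
    rw [Subgroup.coe_mul, Subgroup.coe_mul, Units.val_mul, Units.val_mul, e1, Matrix.mul_smul, smul_mulVec,
      Subgroup.coe_inv, Units.inv_mul, one_mulVec]
  have h1 := so_scalar_eq_one hQ.card (det_so _) (mem_isometryGroup.1 (b⁻¹ * (a * fieldSO hQ τ b)).2.1)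
    (exists_ne_zero hQ.gh) hx
  exact ⟨b, eq_mul_inv_of_mul_eq (inv_mul_eq_one.1 (Subtype.ext h1)).symm⟩

/-- Lang's theorem for a field automorphism. -/
theorem exists_conj_field (hφ : ∀ c, τ c = c ↔ c ∈ Set.range φ) (a : SO')
    (h : (soA Qs a * fieldA hQ τ) ^ orderOf τ = 1) :
    ∃ b : SO', soA Qs a * fieldA hQ τ = soA Qs b * fieldA hQ τ * (soA Qs b)⁻¹ := by
  rw [pow_soA_mul_fieldA hQ, pow_orderOf_eq_one, map_one, mul_one] at h
  obtain ⟨b, hb⟩ := exists_coboundary_SO hQ hφ a (soA_injective hQ.gh hQ.card (h.trans (map_one _).symm))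
  exact ⟨b, soA_mul_fieldA_eq hQ a τ hb⟩

theorem commute_field_iff (hφ : ∀ c, τ c = c ↔ c ∈ Set.range φ) (a : SO') :
    soA Qs a * fieldA hQ τ = fieldA hQ τ * soA Qs a ↔ a ∈ (mapSO hQ.two_ne φ).range := by
  rw [fieldA_mul_soA hQ, mul_left_inj, (soA_injective hQ.gh hQ.card).eq_iff, eq_comm]
  constructor
  · intro h
    have he : ∀ i j, ∃ d, φ d = a.1.1 i j := fun i j => (hφ _).1 (by
      conv_rhs => rw [← h, coe_fieldSO, Matrix.map_apply])
    choose d hd using he
    have hM : φ.mapMatrix (Matrix.of d) = a.1.1 := Matrix.ext hd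
    have hdet : (Matrix.of d).det = 1 := φ.injective (by rw [RingHom.map_det, hM, det_so, map_one])
    have hmem : Matrix.GeneralLinearGroup.mkOfDetNeZero (Matrix.of d) (by rw [hdet]; exact one_ne_zero) ∈ SO0 := by
      refine ⟨mem_isometryGroup.2 fun v => φ.injective ?_, MonoidHom.mem_ker.2 (Units.ext hdet)⟩
      show φ (Q0 (Matrix.of d *ᵥ v)) = φ (Q0 v)
      rw [← quadOdd_map, ← map_mulVec_comp, ← RingHom.mapMatrix_apply, hM, mem_isometryGroup.1 a.2.1,
        quadOdd_map]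
    exact ⟨⟨_, hmem⟩, Subtype.ext (Units.ext hM)⟩
  · rintro ⟨b, rfl⟩
    exact Subtype.ext (Units.ext (Matrix.ext fun i j => (hφ _).2 ⟨_, rfl⟩))

/-- The centraliser of a field automorphism is the special orthogonal group of the fixed field. -/
theorem centralizer_eq (hφ : ∀ c, τ c = c ↔ c ∈ Set.range φ) :
    (soA Qs).range ⊓ Subgroup.centralizer {fieldA hQ τ} =
      ((soA Qs).comp (mapSO hQ.two_ne φ)).range := by
  ext y
  constructor
  · rintro ⟨⟨a, rfl⟩, hy⟩
    obtain ⟨b, rfl⟩ := (commute_field_iff hQ hφ a).1 (Subgroup.mem_centralizer_singleton_iff.1 hy)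
    exact ⟨b, rfl⟩
  · rintro ⟨b, rfl⟩
    exact ⟨⟨_, rfl⟩, Subgroup.mem_centralizer_singleton_iff.2 ((commute_field_iff hQ hφ _).2 ⟨b, rfl⟩)⟩

end CfsgLib.AutPO
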