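import Cfsg.Agent.AutPO.OddField
set_option autoImplicit false
set_option quotPrecheck false
set_option linter.unusedSectionVars false

/-!
Splitting of the class of a field automorphism of `PΩ_(2m+1)(q)`.
-/

namespace CfsgLib.AutPO

open QuadraticMap Matrix
open CfsgLib.Forms

variable {F : Type*} [Field F] [Fintype F] {F₀ : Type*} [Field F₀] [Fintype F₀] {m : ℕ}
  {τ : RingAut F} {φ : F₀ →+* F}

local notation "I" => (Unit ⊕ (Fin m ⊕ Fin m))
local notation "Qs" => (quadOdd F m)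
local notation "Q0" => (quadOdd F₀ m)
local notation "SO'" => (Cfsg.specialIsometryGL F ⇑(quadOdd F m))
local notation "SO0" => (Cfsg.specialIsometryGL F₀ ⇑(quadOdd F₀ m))

/-- A rational list of reflection vectors over the larger field. -/
def mapList (φ : F₀ →+* F) (l : List {u : I → F₀ // (quadOdd F₀ m) u ≠ 0}) :
    List {u : I → F // (quadOdd F m) u ≠ 0} :=
  l.map fun u => ⟨φ ∘ u.1, by rw [quadOdd_map]; exact (map_ne_zero φ).2 u.2⟩

theorem valueProd_mapList (l : List {u : I → F₀ // (quadOdd F₀ m) u ≠ 0}) :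
    valueProd Qs (mapList φ l) = φ (valueProd Q0 l) := by
  simp only [valueProd, mapList, map_list_prod, List.map_map]
  congr 1
  exact List.map_congr_left fun u _ => quadOdd_map φ u.1

theorem reflProd_mapList (l : List {u : I → F₀ // (quadOdd F₀ m) u ≠ 0}) (v : I → F₀) :
    reflProd Qs (mapList φ l) (φ ∘ v) = φ ∘ reflProd Q0 l v := by
  induction l with
  | nil => rfl
  | cons u l ih =>
    show refl Qs (φ ∘ u.1) (by rw [quadOdd_map]; exact (map_ne_zero φ).2 u.2) (reflProd Qs (mapList φ l) (φ ∘ v)) = φ ∘ refl Q0 u.1 u.2 (reflProd Q0 l v)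
    have hadd : ∀ x y : I → F₀, φ ∘ x + φ ∘ y = φ ∘ (x + y) := fun x y => funext fun i => (map_add φ _ _).symm
    rw [ih, refl_apply, refl_apply]
    funext i
    simp only [QuadraticMap.polar, hadd, quadOdd_map, Pi.sub_apply, Pi.smul_apply, Function.comp_apply,
      smul_eq_mul, map_sub, map_mul, map_inv₀]

theorem mapSO_list (h2 : (2 : F) ≠ 0) (b : SO0) {l : List {u : I → F₀ // (quadOdd F₀ m) u ≠ 0}}
    (hl : isoEquiv Q0 ⟨b.1, b.2.1⟩ = ⟨reflProd Q0 l, reflProd_mem_isom l⟩) :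
    isoEquiv Qs ⟨(mapSO h2 φ b).1, (mapSO h2 φ b).2.1⟩ =
      ⟨reflProd Qs (mapList φ l), reflProd_mem_isom _⟩ := by
  refine Subtype.ext (LinearEquiv.toLinearMap_injective ((Pi.basisFun F I).ext fun i => ?_))
  have hs : φ ∘ (Pi.single i 1 : I → F₀) = Pi.single i 1 := funext fun j => by
    by_cases hj : j = i <;> simp [hj]
  rw [Pi.basisFun_apply, ← hs]
  show glEquiv (mapSO h2 φ b).1 (φ ∘ _) = reflProd Qs (mapList φ l) (φ ∘ _)
  rw [reflProd_mapList, glEquiv_apply, coe_mapSO, map_mulVec_comp, ← glEquiv_apply]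
  have e := congrArg Subtype.val hl
  rw [coe_isoEquiv] at e
  rw [e]

variable (hQ : GO (quadOdd F m))
include hQ

theorem spin_mapSO_eq_one (h : ∀ x : F₀, IsSquare (φ x)) (b : SO0) :
    spinSO hQ (mapSO hQ.two_ne φ b) = 1 := by
  have h20 : (2 : F₀) ≠ 0 := fun h0 => hQ.two_ne (by rw [← map_ofNat φ 2, h0, map_zero])
  have hd0 : Nat.card F₀ ≠ 2 ∨ Fintype.card I ≠ 4 := Or.inr (by have := hQ.gh.dim; omega)
  have hd : Nat.card F ≠ 2 ∨ Fintype.card I ≠ 4 := Or.inr (by have := hQ.gh.dim; omega)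
  obtain ⟨l, hl⟩ := exists_list (nondegenerate_quadOdd m h20) hd0 ⟨b.1, b.2.1⟩
  rw [spinSO_eq_one_iff, mem_Omega_of_list hQ.gh.nondeg hd (mapSO_list hQ.two_ne b hl), valueProd_mapList]
  refine ⟨?_, h _⟩
  have hlen : Even l.length := by
    have h1 := det_of_list hl
    rw [det_so] at h1
    rcases Nat.even_or_odd l.length with he | ho
    · exact he
    · rw [ho.neg_one_pow] at h1
      exact absurd (by linear_combination h1) h20
  simpa [mapList] using hlen

theorem exists_spin_mapSO_ne_one (h : ∃ x : F₀, x ≠ 0 ∧ ¬ IsSquare (φ x)) :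
    ∃ b : SO0, spinSO hQ (mapSO hQ.two_ne φ b) ≠ 1 := by
  obtain ⟨x, hx0, hx⟩ := h
  have h20 : (2 : F₀) ≠ 0 := fun h0 => hQ.two_ne (by rw [← map_ofNat φ 2, h0, map_zero])
  have hd : Nat.card F ≠ 2 ∨ Fintype.card I ≠ 4 := Or.inr (by have := hQ.gh.dim; omega)
  have hdim : 2 ≤ Module.finrank F₀ (I → F₀) := by
    rw [Module.finrank_fintype_fun_eq_card]; have := hQ.gh.dim; omega
  obtain ⟨u, hu⟩ := exists_value (nondegenerate_quadOdd m h20) hdim (one_ne_zero : (1 : F₀) ≠ 0)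
  obtain ⟨w, hw⟩ := exists_value (nondegenerate_quadOdd m h20) hdim hx0
  let l : List {z : I → F₀ // (quadOdd F₀ m) z ≠ 0} :=
    [⟨u, by rw [hu]; exact one_ne_zero⟩, ⟨w, by rw [hw]; exact hx0⟩]
  obtain ⟨g, hg⟩ : ∃ g, isoEquiv Q0 g = ⟨reflProd Q0 l, reflProd_mem_isom l⟩ :=
    ⟨_, isoEquiv_listGL l⟩
  have hdet : (g : GL I F₀).1.det = 1 := by
    rw [det_of_list hg]; simp [l]
  let b : SO0 := ⟨g, g.2, MonoidHom.mem_ker.2 (Units.ext hdet)⟩
  refine ⟨b, fun e => hx ?_⟩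
  rw [spinSO_eq_one_iff, mem_Omega_of_list hQ.gh.nondeg hd
    (mapSO_list hQ.two_ne b (l := l) hg), valueProd_mapList] at e
  have e2 := e.2
  simp only [valueProd, l, List.map_cons, List.map_nil, List.prod_cons, List.prod_nil, hu, hw, one_mul, mul_one] at e2
  exact e2

theorem splitClassCount_eq (hφ : ∀ c, τ c = c ↔ c ∈ Set.range φ) :
    Cfsg.splitClassCount (soA Qs).range (Cfsg.Inn (Cfsg.POmega F ⇑Qs)) (fieldA hQ τ) =
      Nat.card (ℤˣ ⧸ ((spinSO hQ).comp (mapSO hQ.two_ne φ)).range) := by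
  set P := ((spinSO hQ).comp (mapSO hQ.two_ne φ)).range
  let e := MonoidHom.ofInjective (soA_injective hQ.gh hQ.card)
  let θ : ↥(soA Qs).range →* ℤˣ ⧸ P :=
    ((QuotientGroup.mk' P).comp (spinSO hQ)).comp e.symm.toMonoidHom
  have hθ : ∀ a, θ (e a) = QuotientGroup.mk' P (spinSO hQ a) := fun a => by
    show QuotientGroup.mk' P (spinSO hQ (e.symm (e a))) = _
    rw [e.symm_apply_apply]
  refine CfsgLib.AutPSL.splitClassCount_eq_card _ _ _ (inn_le_range hQ) θ (fun z => ?_) (fun h => ?_)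
  · obtain ⟨z, rfl⟩ := QuotientGroup.mk'_surjective P z
    obtain ⟨a, rfl⟩ := spinSO_surjective hQ z
    exact ⟨_, hθ a⟩
  · obtain ⟨a, rfl⟩ := e.surjective h
    rw [hθ, QuotientGroup.mk'_apply, QuotientGroup.eq_one_iff]
    change _ ↔ ∃ k ∈ _, ∃ c ∈ _, soA Qs a = k * c
    constructor
    · rintro ⟨b, hb⟩
      refine ⟨soA Qs (a * (mapSO hQ.two_ne φ b)⁻¹), (soA_mem_inn_iff hQ _).2 ?_,
        soA Qs (mapSO hQ.two_ne φ b), ?_, ?_⟩
      · rw [map_mul, map_inv, ← hb, MonoidHom.comp_apply, mul_inv_cancel]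
      · rw [centralizer_eq hQ hφ]; exact ⟨b, rfl⟩
      · rw [← map_mul, inv_mul_cancel_right]
    · rintro ⟨k, hk, c, hc, e'⟩
      rw [centralizer_eq hQ hφ] at hc
      obtain ⟨b, rfl⟩ := hc
      obtain ⟨k', rfl⟩ := inn_le_range hQ hk
      rw [MonoidHom.comp_apply, ← map_mul] at e'
      rw [soA_injective hQ.gh hQ.card e', map_mul, (soA_mem_inn_iff hQ k').1 hk, one_mul]
      exact ⟨b, rfl⟩

theorem pow_div_two_parity (k : ℕ) : ∀ r, ∃ S, (2 * k + 1) ^ r = 2 * k * S + 1 ∧ (Odd S ↔ Odd r)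
  | 0 => ⟨0, by simp⟩
  | r + 1 => by
    obtain ⟨S, hS, hp⟩ := pow_div_two_parity k r
    refine ⟨S * (2 * k + 1) + 1, by rw [pow_succ, hS]; ring, ?_⟩
    rw [Nat.odd_add_one, Nat.odd_add_one, Nat.odd_mul, hp]
    simp

theorem isSquare_map_iff {r : ℕ} (hcard : Fintype.card F = Fintype.card F₀ ^ r) (x : F₀) :
    IsSquare (φ x) ↔ IsSquare x ∨ Even r := by
  rcases eq_or_ne x 0 with rfl | hx
  · exact iff_of_true (by rw [map_zero]; exact IsSquare.zero) (Or.inl IsSquare.zero)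
  have h2 := hQ.two_ne
  have h20 : (2 : F₀) ≠ 0 := fun h0 => h2 (by rw [← map_ofNat φ 2, h0, map_zero])
  have hc : ringChar F ≠ 2 := fun h => h2 (by have := ringChar.eq_iff.1 h; exact CharTwo.two_eq_zero)
  have hc0 : ringChar F₀ ≠ 2 := fun h => h20 (by have := ringChar.eq_iff.1 h; exact CharTwo.two_eq_zero)
  obtain ⟨k, hk⟩ := CfsgLib.OrthOrder.odd_of_two_ne_zero h20
  obtain ⟨S, hS, hp⟩ := pow_div_two_parity hQ k r
  rw [FiniteField.isSquare_iff hc ((map_ne_zero φ).2 hx), hcard, hk, hS,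
    show (2 * k * S + 1) / 2 = k * S by rw [mul_assoc]; omega, ← map_pow, map_eq_one_iff φ φ.injective, pow_mul,
    FiniteField.isSquare_iff hc0 hx, hk, show (2 * k + 1) / 2 = k by omega]
  rcases FiniteField.pow_dichotomy hc0 hx with h1 | h1 <;>
    rw [hk, show (2 * k + 1) / 2 = k by omega] at h1
  · simp [h1]
  · rw [h1, neg_one_pow_eq_one_iff_even (fun h => h20 (by linear_combination -h))]
    have hne : (-1 : F₀) ≠ 1 := fun h => h20 (by linear_combination -h)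
    simp only [hne, false_or, ← Nat.not_odd_iff_even, hp]

theorem splitClassCount_value {r : ℕ} (hφ : ∀ c, τ c = c ↔ c ∈ Set.range φ)
    (hcard : Fintype.card F = Fintype.card F₀ ^ r) :
    (Odd r → Cfsg.splitClassCount (soA Qs).range (Cfsg.Inn (Cfsg.POmega F ⇑Qs)) (fieldA hQ τ) = 1) ∧
      (Even r → Cfsg.splitClassCount (soA Qs).range (Cfsg.Inn (Cfsg.POmega F ⇑Qs)) (fieldA hQ τ) = 2) := by
  rw [splitClassCount_eq hQ hφ]
  refine ⟨fun hr => ?_, fun hr => ?_⟩
  · have h20 : (2 : F₀) ≠ 0 := fun h0 => hQ.two_ne (by rw [← map_ofNat φ 2, h0, map_zero])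
    obtain ⟨ν, hν⟩ := FiniteField.exists_nonsquare (F := F₀) (fun h => h20 (by
      have := ringChar.eq_iff.1 h; exact CharTwo.two_eq_zero))
    obtain ⟨b, hb⟩ := exists_spin_mapSO_ne_one hQ (φ := φ) ⟨ν, fun h => hν (h ▸ IsSquare.zero), fun h =>
      ((isSquare_map_iff hQ hcard ν).1 h).elim hν fun he => Nat.not_even_iff_odd.2 hr he⟩
    have htop : ((spinSO hQ).comp (mapSO hQ.two_ne φ)).range = ⊤ := by
      refine eq_top_iff.2 fun z _ => ?_
      rcases Int.units_eq_one_or z with rfl | rfl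
      · exact one_mem _
      · exact ⟨b, (Int.units_eq_one_or _).resolve_left hb⟩
    rw [htop, ← Subgroup.index_eq_card, Subgroup.index_top]
  · have hbot : ((spinSO hQ).comp (mapSO hQ.two_ne φ)).range = ⊥ := by
      rw [eq_bot_iff]
      rintro _ ⟨b, rfl⟩
      exact Subgroup.mem_bot.2 (spin_mapSO_eq_one hQ (fun x => (isSquare_map_iff hQ hcard x).2 (Or.inr hr)) b)
    rw [hbot, ← Subgroup.index_eq_card, Subgroup.index_bot, Nat.card_eq_fintype_card, Fintype.card_units_int]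

end CfsgLib.AutPO
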