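import Cfsg.Agent.AutPO.OddAut
import Cfsg.Agent.AutPSL.GraphField
set_option autoImplicit false

/-!
The standard odd-dimensional form.
-/

namespace CfsgLib.AutPO

open QuadraticMap Matrix
open CfsgLib.Forms

variable {F : Type*} [Field F] [Fintype F] {m : ℕ}

theorem quadOdd_map {R S : Type*} [Field R] [Field S] (φ : R →+* S) (v : Unit ⊕ (Fin m ⊕ Fin m) → R) :
    quadOdd S m (φ ∘ v) = φ (quadOdd R m v) := by
  simp [Cfsg.quadFormOdd, map_sum, map_pow, map_mul]

theorem go_odd (hodd : Odd (Fintype.card F)) (hm : 3 ≤ m) : GO (quadOdd F m) where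
  gh := gh_odd hodd hm
  two_ne := CfsgLib.OrthOrder.two_ne_zero_of_odd hodd
  card := ⟨m, by simp; omega⟩
  fix τ v := quadOdd_map (τ : F →+* F) v

/-- The group generated by the automorphisms induced by similarities. -/
def simSub {ι : Type} [Fintype ι] [DecidableEq ι] {F : Type*} [Field F] (q : (ι → F) → F) :
    Subgroup (MulAut (Cfsg.POmega F q)) :=
  Cfsg.autSubgroupOf fun β => Cfsg.IsSimilarityInducedAutPOmega q β

theorem inndiag_eq_simSub (m : ℕ) (F : Type*) [Field F] :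
    Cfsg.inndiagPOmegaOdd m F = simSub (Cfsg.quadFormOdd m F) := rfl

section General

variable {F : Type*} [Field F] [Finite F] {ι : Type} [Fintype ι] [DecidableEq ι]
  {Q : QuadraticForm F (ι → F)}

theorem simInduced_iff (hQ : GO Q) (β : MulAut (Cfsg.POmega F ⇑Q)) :
    Cfsg.IsSimilarityInducedAutPOmega (⇑Q) β ↔ β ∈ (soA Q).range := by
  constructor
  · rintro ⟨g, hg, hind⟩
    obtain ⟨c, hc⟩ := hg
    have hs : IsSemi Q g (1 : RingAut F) (c : F) := ⟨c.ne_zero, hc⟩
    obtain ⟨a, ha⟩ := stdAut_eq hQ hs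
    rw [map_one, mul_one] at ha
    exact ⟨a, by rw [eq_stdAut_of_induced hs hind, ha]⟩
  · rintro ⟨a, rfl⟩
    exact ⟨(a : GL ι F), so_le_sim a.2, soA_induced a⟩

theorem simSub_eq (hQ : GO Q) : simSub ⇑Q = (soA Q).range := by
  rw [simSub, Cfsg.autSubgroupOf]
  conv_rhs => rw [← Subgroup.closure_eq (soA Q).range]
  exact congrArg Subgroup.closure (Set.ext (simInduced_iff hQ))

theorem spinSO_fieldSO (hQ : GO Q) (τ : RingAut F) (b : Cfsg.specialIsometryGL F ⇑Q) :
    spinSO hQ (fieldSO hQ τ b) = spinSO hQ b := by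
  have key : spinSO hQ (fieldSO hQ τ b) = 1 ↔ spinSO hQ b = 1 := by
    rw [← soA_mem_inn_iff hQ, ← soA_mem_inn_iff hQ,
      show soA Q (fieldSO hQ τ b) = fieldA hQ τ * soA Q b * (fieldA hQ τ)⁻¹ by
        rw [fieldA_mul_soA hQ]; group]
    refine ⟨fun h => ?_, fun h => Subgroup.Normal.conj_mem inferInstance _ h _⟩
    have := Subgroup.Normal.conj_mem (inferInstance : (Cfsg.Inn (Cfsg.POmega F ⇑Q)).Normal) _ h
      (fieldA hQ τ)⁻¹
    simpa [mul_assoc] using this
  rcases Int.units_eq_one_or (spinSO hQ b) with h | h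
  · rw [h, key.2 h]
  · rcases Int.units_eq_one_or (spinSO hQ (fieldSO hQ τ b)) with h' | h'
    · rw [h', key.1 h']
    · rw [h', h]

/-- The outer automorphism group. -/
theorem out_equiv (hQ : GO Q) :
    Nonempty (Cfsg.Out (Cfsg.POmega F ⇑Q) ≃* ℤˣ × RingAut F) := by
  set E := autEquiv hQ
  have hE : ∀ a τ, E.symm (soA Q a * fieldA hQ τ) = (a, τ) := fun a τ => E.symm_apply_apply (a, τ)
  let θ : MulAut (Cfsg.POmega F ⇑Q) →* ℤˣ × RingAut F :=
    MonoidHom.mk' (fun α => (spinSO hQ (E.symm α).1, (E.symm α).2)) fun α β => by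
      obtain ⟨a, τ, rfl⟩ := classifyA hQ α
      obtain ⟨b, σ, rfl⟩ := classifyA hQ β
      rw [show soA Q a * fieldA hQ τ * (soA Q b * fieldA hQ σ) =
          soA Q (a * fieldSO hQ τ b) * fieldA hQ (τ * σ) by
        rw [map_mul, map_mul, mul_assoc, ← mul_assoc (fieldA hQ τ), fieldA_mul_soA hQ]; group,
        hE, hE, hE, map_mul, spinSO_fieldSO hQ]
      rfl
  have hθ : ∀ a τ, θ (soA Q a * fieldA hQ τ) = (spinSO hQ a, τ) := fun a τ => by
    show (spinSO hQ (E.symm _).1, (E.symm _).2) = _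
    rw [hE]
  have hsurj : Function.Surjective θ := fun ⟨z, τ⟩ => by
    obtain ⟨a, rfl⟩ := spinSO_surjective hQ z
    exact ⟨_, hθ a τ⟩
  have hker : θ.ker = Cfsg.Inn (Cfsg.POmega F ⇑Q) := by
    ext α
    obtain ⟨a, τ, rfl⟩ := classifyA hQ α
    rw [MonoidHom.mem_ker, hθ, Prod.ext_iff]
    constructor
    · rintro ⟨ha, hτ : τ = 1⟩
      rw [hτ, map_one, mul_one]
      exact (soA_mem_inn_iff hQ a).2 ha
    · intro h
      obtain ⟨b, hb⟩ := inn_le_range hQ h
      obtain ⟨hab, hτ⟩ := uniqueA hQ (show soA Q b * fieldA hQ 1 = soA Q a * fieldA hQ τ by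
        rw [map_one, mul_one, hb])
      subst hab hτ
      rw [map_one, mul_one] at h
      exact ⟨(soA_mem_inn_iff hQ b).1 h, rfl⟩
  exact ⟨(QuotientGroup.quotientMulEquivOfEq hker.symm).trans
    (QuotientGroup.quotientKerEquivOfSurjective θ hsurj)⟩

theorem out_zmod [Fintype F] (hQ : GO Q) {p f : ℕ} [Fact p.Prime] (hF : Fintype.card F = p ^ f) :
    Nonempty (Cfsg.Out (Cfsg.POmega F ⇑Q) ≃* Multiplicative (ZMod 2 × ZMod f)) := by
  obtain ⟨e⟩ := out_equiv hQ
  haveI := CfsgLib.AutPSL.isCyclic_ringAut F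
  haveI : IsCyclic ℤˣ := isCyclic_of_prime_card (p := 2) (by rw [Nat.card_eq_fintype_card, Fintype.card_units_int])
  let e₁ : ℤˣ ≃* Multiplicative (ZMod 2) :=
    mulEquivOfCyclicCardEq (by simp [Nat.card_eq_fintype_card])
  let e₂ : RingAut F ≃* Multiplicative (ZMod f) :=
    mulEquivOfCyclicCardEq (by rw [CfsgLib.AutPSL.card_ringAut F hF, Nat.card_congr Multiplicative.toAdd, Nat.card_zmod])
  exact ⟨e.trans ((e₁.prodCongr e₂).trans (MulEquiv.prodMultiplicative _ _).symm)⟩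

end General

end CfsgLib.AutPO
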